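import Cfsg.Agent.Lib.MaxN.A
import Cfsg.Agent.Lib.H8FT

/-!
# Groups whose `{p, q}`-subgroups have maximal normalizers: an elementary abelian `2`-group with a
fixed-point-free operator
-/

set_option autoImplicit false

namespace CfsgLib.H5.MN

open Subgroup Cfsg CfsgLib.FT.BGN CfsgLib.FT.U4 CfsgLib.GW

variable {G : Type*} [Group G]

/-- `ρ` has odd prime order and acts without fixed points on the elementary abelian group `W`. -/
structure Ir (W : Subgroup G) (ρ : G) : Prop where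
  ne : W ≠ ⊥
  sq : ∀ w ∈ W, w * w = 1
  pr : (orderOf ρ).Prime
  odd : orderOf ρ ≠ 2
  norm : ρ ∈ 𝐍(W)
  fix : ∀ w ∈ W, ρ * w = w * ρ → w = 1

namespace Ir

variable {W : Subgroup G} {ρ : G} (h : Ir W ρ)
include h

theorem inv {w : G} (hw : w ∈ W) : w⁻¹ = w := inv_eq_of_mul_eq_one_right (h.sq w hw)

theorem comm {a b : G} (ha : a ∈ W) (hb : b ∈ W) : a * b = b * a := by
  rw [← h.inv (mul_mem ha hb), mul_inv_rev, h.inv ha, h.inv hb]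

theorem ord {w : G} (hw : w ∈ W) (h1 : w ≠ 1) : orderOf w = 2 := inv_of_mul_self (h.sq w hw) h1

theorem pgroup : IsPGroup 2 W := fun g => ⟨1, Subtype.ext (by simpa [pow_two] using h.sq g g.2)⟩

theorem le_cent {w : G} (hw : w ∈ W) : W ≤ 𝐂[w] := fun _ ha => mem_cent1.2 (h.comm ha hw)

theorem conj (g : G) : Ir (g •ᶜ W) (g * ρ * g⁻¹) where
  ne := fun e => h.ne (conj_eq_bot_iff.1 e)
  sq := by
    rintro _ ⟨w, hw, rfl⟩
    change g * w * g⁻¹ * (g * w * g⁻¹) = 1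
    rw [conj_mul, h.sq w hw]; group
  pr := by rw [orderOf_conj]; exact h.pr
  odd := by rw [orderOf_conj]; exact h.odd
  norm := by rw [normalizer_map_conj]; exact conj_mem_map_conj h.norm
  fix := by
    rintro _ ⟨w, hw, rfl⟩ e
    change g * ρ * g⁻¹ * (g * w * g⁻¹) = g * w * g⁻¹ * (g * ρ * g⁻¹) at e
    rw [conj_mul, conj_mul, mul_left_inj, mul_right_inj] at e
    change g * w * g⁻¹ = 1
    rw [h.fix w hw e]; group

theorem odd' : Odd (orderOf ρ) := h.pr.odd_of_ne_two h.odd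

theorem ne_one : ρ ≠ 1 := fun e => by have := h.pr; simp [e, Nat.not_prime_one] at this

theorem eq_one {x : G} (h1 : x ∈ W) (h2 : x ∈ zpowers ρ) : x = 1 :=
  eq_one_of_odd_of_mul_self (h.odd'.of_dvd_nat (orderOf_dvd_of_mem_zpowers h2)) (h.sq x h1)

theorem conj_mem {w : G} (hw : w ∈ W) : ρ * w * ρ⁻¹ ∈ W := conj_mem_of_mem_normalizer h.norm hw

theorem comm_mem {w : G} (hw : w ∈ W) : w * ρ * w⁻¹ * ρ⁻¹ ∈ W := by
  have := mul_mem hw (h.conj_mem (inv_mem hw))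
  simpa only [mul_assoc] using this

theorem eq_one_of_norm {w : G} (hw : w ∈ W) (hn : w ∈ 𝐍(zpowers ρ)) : w = 1 := by
  have := h.eq_one (h.comm_mem hw) (mul_mem (conj_mem_of_mem_normalizer hn (mem_zpowers ρ))
    (inv_mem (mem_zpowers ρ)))
  refine h.fix w hw ?_
  rw [mul_inv_eq_one, mul_inv_eq_iff_eq_mul] at this
  exact this.symm

variable [Finite G]

theorem fix2 {w : G} (hw : w ∈ W) (e : ρ * ρ * w = w * (ρ * ρ)) : w = 1 :=
  h.fix w hw (mem_cent1.1 (zpowers_le.2 (mem_cent1.2 e) (mem_zpowers_sq h.odd')))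

theorem surj {v : G} (hv : v ∈ W) : ∃ w ∈ W, w * ρ * w⁻¹ * ρ⁻¹ = v := by
  let f : W → W := fun w => ⟨w * ρ * (w : G)⁻¹ * ρ⁻¹, h.comm_mem w.2⟩
  have hf : Function.Injective f := fun a b e => by
    have e1 : (a : G) * ρ * (a : G)⁻¹ * ρ⁻¹ = b * ρ * (b : G)⁻¹ * ρ⁻¹ := congrArg Subtype.val e
    have e2 := h.fix _ (mul_mem (inv_mem b.2) a.2) (by
      calc ρ * ((b : G)⁻¹ * a) = (b : G)⁻¹ * (b * ρ * (b : G)⁻¹ * ρ⁻¹) * ρ * a := by group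
        _ = _ := by rw [← e1]; group)
    exact (Subtype.ext (inv_mul_eq_one.1 e2)).symm
  obtain ⟨w, hw⟩ := Finite.injective_iff_surjective.1 hf ⟨v, hv⟩
  exact ⟨w, w.2, congrArg Subtype.val hw⟩

omit [Finite G] in
theorem exists_fix {t : G} (ht : t * t = 1) (hn : t ∈ 𝐍(W)) :
    ∃ w ∈ W, w ≠ 1 ∧ t * w = w * t := by
  obtain ⟨w, hw, hw1⟩ := exists_ne_one h.ne
  by_cases e : t * w = w * t
  · exact ⟨w, hw, hw1, e⟩
  have h1 := conj_mem_of_mem_normalizer hn hw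
  have ti : t⁻¹ = t := inv_eq_of_mul_eq_one_right ht
  refine ⟨w * (t * w * t⁻¹), mul_mem hw h1, fun e1 => e ?_, ?_⟩
  · rw [← mul_inv_eq_iff_eq_mul, eq_inv_of_mul_eq_one_right e1, h.inv hw]
  · calc t * (w * (t * w * t⁻¹)) = (t * w * t⁻¹) * (t * t) * w * t⁻¹ := by group
      _ = w * (t * w * t⁻¹) * t := by rw [ht, mul_one, h.comm h1 hw, ti]

variable (hG : Hy G)
include hG

theorem norm_sup : 𝐍(W ⊔ zpowers ρ) = 𝐍(W) :=
  hG.norm_sup Nat.prime_two h.pr h.odd.symm h.pgroup (isPGroup_zpowers rfl) h.ne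
    (zpowers_le.2 h.norm)

theorem mem_of_comm {x : G} (hx : x ∈ 𝐍(W)) (h2 : IsPGroup 2 (zpowers x))
    (hc : x * ρ * x⁻¹ * ρ⁻¹ ∈ W) : x ∈ W := by
  obtain ⟨w, hw, e⟩ := h.surj hc
  have hT : IsPGroup 2 (zpowers x ⊔ W : Subgroup G) :=
    h2.to_sup_of_normal_right' h.pgroup (zpowers_le.2 hx)
  have h3 : w⁻¹ * x ∈ zpowers x ⊔ W :=
    mul_mem (mem_sup_right (inv_mem hw)) (mem_sup_left (mem_zpowers x))
  have h4 : w⁻¹ * x ∈ 𝐂[ρ] := mem_cent1_of_conj_eq (by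
    calc w⁻¹ * x * ρ * (w⁻¹ * x)⁻¹ = w⁻¹ * (x * ρ * x⁻¹ * ρ⁻¹) * ρ * w := by group
      _ = ρ := by rw [← e]; group)
  by_contra hxW
  obtain ⟨t, ht, ho⟩ := exists_inv_zpowers (hT.to_le (zpowers_le.2 h3))
    (fun e1 => hxW (inv_mul_eq_one.1 e1 ▸ hw))
  obtain ⟨v, hv, hv1, e2⟩ := h.exists_fix (mul_self_of_inv ho)
    (sup_le (zpowers_le.2 hx) le_normalizer (zpowers_le.2 h3 ht))
  refine hv1 (h.eq_one_of_norm hv ?_)
  rw [← hG.cent_eq' ho h.pr h.odd (mem_cent1.1 (zpowers_le.2 h4 ht))]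
  exact mem_cent1.2 e2.symm

theorem cases {x : G} (hx : x ∈ 𝐍(W)) (h2 : x * x = 1) :
    x * ρ * x⁻¹ * ρ⁻¹ ∈ W ∨ x * ρ * x⁻¹ * ρ ∈ W := by
  obtain ⟨v, hv, a, ha, e⟩ := (mem_sup_iff_of_le_normalizer' (zpowers_le.2 h.norm)).1
    (conj_mem_of_mem_normalizer (h.norm_sup hG ▸ hx) (mem_sup_right (mem_zpowers ρ)))
  obtain ⟨k, rfl⟩ := mem_zpowers_iff.1 ha
  let f := QuotientGroup.mk' (W.subgroupOf 𝐍(W))
  have hf : ∀ y : 𝐍(W), f y = 1 → (y : G) ∈ W := fun y hy =>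
    mem_subgroupOf.1 ((QuotientGroup.eq_one_iff y).1 hy)
  have hv' : f ⟨v, le_normalizer hv⟩ = 1 := (QuotientGroup.eq_one_iff _).2 hv
  have e1 : (⟨x, hx⟩ * ⟨ρ, h.norm⟩ * ⟨x, hx⟩⁻¹ : 𝐍(W)) =
      ⟨v, le_normalizer hv⟩ * ⟨ρ, h.norm⟩ ^ k := Subtype.ext e.symm
  have e2 : (⟨x, hx⟩ * ⟨x, hx⟩ : 𝐍(W)) = 1 := Subtype.ext h2
  have e3 : (⟨ρ, h.norm⟩ : 𝐍(W)) ^ orderOf ρ = 1 := Subtype.ext (pow_orderOf_eq_one ρ)
  rcases conj_eq_or_inv (x := f ⟨x, hx⟩) (u := f ⟨ρ, h.norm⟩) h.pr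
    (by rw [← map_pow, e3, map_one])
    (by rw [← map_inv, ← map_mul, ← map_mul, e1, map_mul, hv', one_mul, map_zpow]
        exact zpow_mem (mem_zpowers _) k)
    (by rw [← map_mul, e2, map_one, one_mul, mul_one]) with h3 | h3
  · exact Or.inl (hf (⟨x, hx⟩ * ⟨ρ, h.norm⟩ * ⟨x, hx⟩⁻¹ * ⟨ρ, h.norm⟩⁻¹)
      (by rw [map_mul, map_mul, map_mul, map_inv, map_inv, h3, mul_inv_cancel]))
  · exact Or.inr (hf (⟨x, hx⟩ * ⟨ρ, h.norm⟩ * ⟨x, hx⟩⁻¹ * ⟨ρ, h.norm⟩)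
      (by rw [map_mul, map_mul, map_mul, map_inv, h3, inv_mul_cancel]))

theorem inv_mod {x : G} (hx : x ∈ 𝐍(W)) (h2 : x * x = 1) (hW : x ∉ W) :
    x * ρ * x⁻¹ * ρ ∈ W :=
  (h.cases hG hx h2).resolve_left fun e => hW (h.mem_of_comm hG hx
    (isPGroup_zpowers (inv_of_mul_self h2 fun e1 => hW (e1 ▸ one_mem W))) e)

theorem mul_mem' {a b : G} (ha : a ∈ 𝐍(W)) (hb : b ∈ 𝐍(W)) (ha2 : a * a = 1) (hb2 : b * b = 1)
    (haW : a ∉ W) (hbW : b ∉ W) (h2 : IsPGroup 2 (zpowers (a * b))) : a * b ∈ W := by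
  refine h.mem_of_comm hG (mul_mem ha hb) h2 ?_
  have := mul_mem (conj_mem_of_mem_normalizer ha (h.inv_mod hG hb hb2 hbW))
    (h.conj_mem (inv_mem (h.inv_mod hG ha ha2 haW)))
  convert this using 1
  group

theorem cent_two : IsPGroup 2 𝐂(W) := by
  by_contra hc
  obtain ⟨u, hu, hp, h2⟩ := exists_odd_of_not_two hc
  obtain ⟨w, hw, hw1⟩ := exists_ne_one h.ne
  have h3 : ∀ v ∈ W, v ≠ 1 → 𝐂[v] = 𝐍(zpowers u) := fun v hv h1 =>
    hG.cent_eq' (h.ord hv h1) hp h2 (mem_cent.1 hu v hv)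
  have h4 : 𝐂[w] ≤ 𝐍(W) := le_trans (fun g hg => mem_cent.2 fun v hv => by
    by_cases h1 : v = 1
    · simp [h1]
    · rw [h3 w hw hw1, ← h3 v hv h1] at hg
      exact mem_cent1'.1 hg) (cent_le_norm W)
  have h5 := hG.eq_of_le (hG.coatom_cent (h.ord hw hw1)) h.ne
    (solvable_of_pgroup Nat.prime_two h.pgroup) h4
  exact hw1 (h.fix w hw (mem_cent1.1 (h5 ▸ h.norm)))

theorem cent_le : 𝐂(W) ≤ W := fun x hx => by
  have hn := cent_le_norm W hx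
  refine h.mem_of_comm hG hn ((h.cent_two hG).to_le (zpowers_le.2 hx))
    (mem_of_sup Nat.prime_two h.pr h.odd.symm h.pgroup (isPGroup_zpowers rfl)
      (zpowers_le.2 h.norm) ((h.cent_two hG).to_le (zpowers_le.2 ?_)) ?_)
  · have := mul_mem hx (conj_mem_of_mem_normalizer (norm_le_norm_cent W h.norm) (inv_mem hx))
    simpa only [mul_assoc] using this
  · exact mul_mem (conj_mem_of_mem_normalizer (h.norm_sup hG ▸ hn)
      (mem_sup_right (mem_zpowers ρ))) (mem_sup_right (inv_mem (mem_zpowers ρ)))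

omit hG in
theorem card_le_four {D : Subgroup G} (h1 : ∀ a ∈ W, ∀ b ∈ W, a ∉ D → b ∉ D → a * b ∈ D)
    (h2 : ∀ t ∈ W, t ∈ D → ρ * t * ρ⁻¹ ∈ D → t = 1) : Nat.card W ≤ 4 := by
  classical
  let f : W → Bool × Bool := fun a => (decide ((a : G) ∈ D), decide (ρ * a * ρ⁻¹ ∈ D))
  have key : ∀ a ∈ W, ∀ b ∈ W, (a ∈ D ↔ b ∈ D) → a * b ∈ D := fun a ha b hb e => by
    by_cases h3 : a ∈ D
    · exact mul_mem h3 (e.1 h3)
    · exact h1 a ha b hb h3 (fun h4 => h3 (e.2 h4))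
  have hf : Function.Injective f := fun a b e => by
    simp only [f, Prod.mk.injEq, decide_eq_decide] at e
    have := h2 _ (mul_mem a.2 b.2) (key _ a.2 _ b.2 e.1)
      (by rw [← conj_mul]; exact key _ (h.conj_mem a.2) _ (h.conj_mem b.2) e.2)
    exact Subtype.ext (by rw [eq_inv_of_mul_eq_one_left this, h.inv b.2])
  simpa using Nat.card_le_card_of_injective f hf

omit hG [Finite G] in
theorem four {w : G} (hw : w ∈ W) (h1 : w ≠ 1) : Four w (ρ * w * ρ⁻¹) :=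
  ⟨h.ord hw h1, by rw [orderOf_conj, h.ord hw h1], h.comm hw (h.conj_mem hw), fun e =>
    h1 (h.fix w hw (mul_inv_eq_iff_eq_mul.1 e.symm))⟩

omit hG in
theorem eq_V (h4 : Nat.card W ≤ 4) {w : G} (hw : w ∈ W) (h1 : w ≠ 1) :
    V w (ρ * w * ρ⁻¹) = W :=
  eq_of_le_of_card_le (V_le hw (h.conj_mem hw)) (by rw [(h.four hw h1).card_V]; exact h4)

omit hG in
theorem mem_iff (h4 : Nat.card W ≤ 4) {w : G} (hw : w ∈ W) (h1 : w ≠ 1) {x : G} :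
    x ∈ W ↔ x = 1 ∨ x = w ∨ x = ρ * w * ρ⁻¹ ∨ x = w * (ρ * w * ρ⁻¹) := by
  rw [← (h.four hw h1).mem_V, h.eq_V h4 hw h1]

omit hG in
theorem conj_two (h4 : Nat.card W ≤ 4) {w : G} (hw : w ∈ W) (h1 : w ≠ 1) :
    ρ * ρ * w * (ρ * ρ)⁻¹ = w * (ρ * w * ρ⁻¹) := by
  have e0 : ρ * ρ * w * (ρ * ρ)⁻¹ = ρ * (ρ * w * ρ⁻¹) * ρ⁻¹ := by group
  rcases (h.mem_iff h4 hw h1).1 (h.conj_mem (h.conj_mem hw)) with e | e | e | e
  · exact absurd e (conj_ne_one_iff.2 (conj_ne_one_iff.2 h1))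
  · exact absurd (h.fix2 hw (mul_inv_eq_iff_eq_mul.1 (e0.trans e))) h1
  · exact absurd (h.fix _ (h.conj_mem hw) (mul_inv_eq_iff_eq_mul.1 e)) (conj_ne_one_iff.2 h1)
  · exact e0.trans e

omit hG in
theorem exists_conj (h4 : Nat.card W ≤ 4) {w : G} (hw : w ∈ W) (h1 : w ≠ 1) {z : G} (hz : z ∈ W)
    (hz1 : z ≠ 1) : ∃ g ∈ zpowers ρ, g * w * g⁻¹ = z := by
  rcases (h.mem_iff h4 hw h1).1 hz with e | e | e | e
  · exact absurd e hz1
  · exact ⟨1, one_mem _, by simp [e]⟩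
  · exact ⟨ρ, mem_zpowers ρ, e.symm⟩
  · exact ⟨ρ * ρ, mul_mem (mem_zpowers ρ) (mem_zpowers ρ), by rw [h.conj_two h4 hw h1, e]⟩

omit hG in
theorem three (h4 : Nat.card W ≤ 4) : orderOf ρ = 3 := by
  obtain ⟨w, hw, h1⟩ := exists_ne_one h.ne
  have h2 : ρ ^ 3 ∈ 𝐂[w] := mem_cent1_of_conj_eq (by
    calc ρ ^ 3 * w * (ρ ^ 3)⁻¹ = ρ * (ρ * ρ * w * (ρ * ρ)⁻¹) * ρ⁻¹ := by
          rw [pow_three]; group
      _ = (ρ * w * ρ⁻¹) * (ρ * ρ * w * (ρ * ρ)⁻¹) := by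
        conv_lhs => rw [h.conj_two h4 hw h1]
        group
      _ = w := by
        rw [h.conj_two h4 hw h1, h.comm hw (h.conj_mem hw), ← mul_assoc, h.sq _ (h.conj_mem hw),
          one_mul])
  by_contra h3
  have h5 : ρ ^ 3 ≠ 1 := fun e => h3 (orderOf_eq_prime e h.ne_one)
  have h6 := zpowers_eq_of_card_prime (X := zpowers ρ) (by rw [Nat.card_zpowers]; exact h.pr)
    (pow_mem (mem_zpowers ρ) 3) h5
  exact h1 (h.fix w hw (mem_cent1.1 (zpowers_le.2 h2 (h6.ge (mem_zpowers ρ)))))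

end Ir

/-- Every nonsolvable subgroup contains such a configuration. -/
theorem Hy.exists_ir [Finite G] (hG : Hy G) {R : Subgroup G} (hR : ¬ Group.IsSolvable R) :
    ∃ (W : Subgroup G) (ρ : G), Ir W ρ ∧ W ≤ R ∧ ρ ∈ R := by
  have hn : ¬ HasNormalPComplement 2 R := fun e => hR (H8FT.solvable_of_hnpc_two e)
  obtain ⟨H0, g0, q, k, hH0, hH1, hg0, hq, hq2, ho, hc⟩ :=
    FrobNPC.exists_not_centralizes_of_not_hnpc hn
  set H := H0.map R.subtype with hHd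
  have hH : IsPGroup 2 H := hH0.map _
  have hg : (g0 : G) ∈ 𝐍(H) := mem_normalizer_of_conj_mem (by
    rintro _ ⟨x, hx, rfl⟩
    exact ⟨_, conj_mem_of_mem_normalizer hg0 hx, rfl⟩)
  have hc' : (g0 : G) ∉ 𝐂(H) := fun e => hc (mem_cent.2 fun x hx =>
    Subtype.ext (mem_cent.1 e x ⟨x, hx, rfl⟩))
  have hgq : IsPGroup q (zpowers (g0 : G)) := by
    haveI := Fact.mk hq
    exact IsPGroup.iff_card.2 ⟨k, by rw [Nat.card_zpowers, Subgroup.orderOf_coe, ho]⟩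
  have hg1 : (g0 : G) ≠ 1 := fun e => hc' (e ▸ one_mem _)
  generalize hgR : (g0 : G) = g at *
  have hgR' : g ∈ R := hgR ▸ g0.2
  have hHR : H ≤ R := map_subtype_le _
  have hH1' : H ≠ ⊥ := fun e => hH1 ((map_eq_bot_iff_of_injective _ R.subtype_injective).1 e)
  clear_value H
  haveI := Fact.mk hq
  obtain ⟨ρ, hρ, hoρ⟩ := exists_orderOf_prime hq (hgq.card_eq_or_dvd.resolve_left fun e =>
    hg1 (by simpa using card_eq_one.1 e))
  let W : Subgroup G :=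
    { carrier := {z | z ∈ H ⊓ 𝐂(H) ∧ z * z = 1}
      one_mem' := ⟨one_mem _, one_mul 1⟩
      mul_mem' := fun {a b} ha hb => ⟨mul_mem ha.1 hb.1, by
        calc a * b * (a * b) = a * (b * a) * b := by group
          _ = 1 := by rw [← mem_cent.1 hb.1.2 a ha.1.1, ← mul_assoc, ha.2, one_mul, hb.2]⟩
      inv_mem' := fun {a} ha => ⟨inv_mem ha.1, by rw [← mul_inv_rev, ha.2, inv_one]⟩ }
  have hgW : g ∈ 𝐍(W) := mem_normalizer_of_conj_mem fun z hz =>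
    ⟨⟨conj_mem_of_mem_normalizer hg hz.1.1,
      conj_mem_of_mem_normalizer (norm_le_norm_cent H hg) hz.1.2⟩, by rw [conj_mul, hz.2]; group⟩
  refine ⟨W, ρ, ⟨?_, fun w hw => hw.2, hoρ ▸ hq, hoρ ▸ hq2, zpowers_le.2 hgW hρ, fun w hw e => ?_⟩,
    fun w hw => hHR hw.1.1, zpowers_le.2 hgR' hρ⟩
  · haveI := (nontrivial_iff_ne_bot H).2 hH1'
    haveI := hH.center_nontrivial
    obtain ⟨z, hz⟩ := exists_ne (1 : center H)
    obtain ⟨t, ht, hot⟩ := exists_inv_zpowers (hH.to_le (zpowers_le.2 z.1.2))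
      (fun e => hz (Subtype.ext (Subtype.ext e)))
    refine ne_bot_of_mem (x := t) ⟨zpowers_le.2 (mem_inf.2 ⟨z.1.2, mem_cent.2 fun x hx => ?_⟩) ht,
      mul_self_of_inv hot⟩ (ne_one_of_inv hot)
    exact congrArg Subtype.val (mem_center_iff.1 z.2 ⟨x, hx⟩)
  · by_contra h1
    have hw2 := inv_of_mul_self hw.2 h1
    have h2 : g ∈ 𝐂[w] := by
      rw [hG.cent_eq' hw2 (hoρ ▸ hq) (hoρ ▸ hq2) e.symm]
      exact norm_le_norm_of_le_cyclic inferInstance (zpowers_le.2 hρ) (le_normalizer (mem_zpowers g))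
    have h3 : H ≤ 𝐍(zpowers g) := by
      rw [← hG.cent_eq hw2 hq hq2 hgq hg1 (mem_cent1'.1 h2)]
      exact fun x hx => mem_cent1.2 (mem_cent.1 hw.1.2 x hx)
    exact hc' (zpowers_le.1 (le_cent_of_inf_eq_bot (zpowers_le.2 hg) h3
      (IsPGroup.disjoint_of_ne q 2 hq2 _ _ hgq hH).eq_bot))

end CfsgLib.H5.MN
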