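import Cfsg.Agent.Lib.MaxN.B

/-!
# Groups whose `{p, q}`-subgroups have maximal normalizers: some involution centralizer is not a
`2`-group
-/

set_option autoImplicit false

namespace CfsgLib.H5.MN

open Subgroup Cfsg CfsgLib.FT.BGN CfsgLib.FT.U4 CfsgLib.GW

variable {G : Type*} [Group G] [Finite G]

omit [Finite G] in
theorem pgroup_cent_conj {t : G} (g : G) :
    IsPGroup 2 𝐂[g * t * g⁻¹] ↔ IsPGroup 2 𝐂[t] := by
  have key : ∀ g t : G, IsPGroup 2 𝐂[t] → IsPGroup 2 𝐂[g * t * g⁻¹] := fun g t h => by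
    rw [cent1_conj]; exact h.map _
  refine ⟨fun h => ?_, key g t⟩
  have := key g⁻¹ _ h
  rwa [show g⁻¹ * (g * t * g⁻¹) * g⁻¹⁻¹ = t by group] at this

theorem not_pgroup_of_mem {H : Subgroup G} {u : G} (hu : u ∈ H) (hp : (orderOf u).Prime)
    (h2 : orderOf u ≠ 2) : ¬ IsPGroup 2 H := fun h =>
  h2 (prime_eq_of_dvd Nat.prime_two hp h (orderOf_dvd_natCard H hu))

namespace Ir

variable {W : Subgroup G} {ρ : G} (h : Ir W ρ) (hG : Hy G)
include h hG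

theorem partner {w : G} (hw : w ∈ W) (h1 : w ≠ 1) (h2 : IsPGroup 2 𝐂[w]) :
    ∃ g ∈ 𝐂[w], g •ᶜ W ≤ 𝐍(W) ∧ W ≤ 𝐍(g •ᶜ W) ∧ ¬ g •ᶜ W ≤ W := by
  haveI := Fact.mk Nat.prime_two
  have h3 : 𝐂[w] ⊓ 𝐍(W) < 𝐂[w] := lt_of_le_of_ne inf_le_left fun e => by
    have h5 := hG.eq_of_le (hG.coatom_cent (h.ord hw h1)) h.ne
      (solvable_of_pgroup Nat.prime_two h.pgroup) (inf_eq_left.1 e)
    exact h1 (h.fix w hw (mem_cent1.1 (h5 ▸ h.norm)))
  obtain ⟨g, hg, hg'⟩ := SetLike.exists_of_lt (lt_inf_normalizer_of_isPGroup h2 h3)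
  have h4 : W ≤ 𝐂[w] ⊓ 𝐍(W) := le_inf (h.le_cent hw) le_normalizer
  have h5 := map_conj_eq_of_mem_normalizer hg.2
  refine ⟨g, hg.1, ((map_mono h4).trans h5.le).trans inf_le_right,
    (h4.trans h5.ge).trans (le_norm_conj inf_le_right g), fun e => hg' ⟨hg.1, ?_⟩⟩
  exact mem_normalizer_of_map_conj_eq (eq_of_le_of_card_le e (card_map_conj g W).ge)

theorem four_of_pair {W' : Subgroup G} {ρ' : G} (h' : Ir W' ρ') (h1 : W' ≤ 𝐍(W))
    (h2 : W ≤ 𝐍(W')) (h3 : ¬ W' ≤ W) : Nat.card W ≤ 4 := by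
  obtain ⟨y, hy, hyW⟩ := SetLike.not_le_iff_exists.1 h3
  refine h.card_le_four (D := W') (fun a ha b hb ha' hb' => h'.mul_mem' hG (h2 ha) (h2 hb)
    (h.sq a ha) (h.sq b hb) ha' hb' (h.pgroup.to_le (zpowers_le.2 (mul_mem ha hb))))
    fun t ht ht' ht'' => h.fix2 ht (mem_cent1.1 ?_)
  have h4 : y ∈ 𝐂[t] := h'.le_cent ht' hy
  have h5 : ρ⁻¹ * y * ρ ∈ 𝐂[t] := by
    have := h'.le_cent ht'' hy
    rwa [cent1_conj, mem_map_conj_iff] at this
  have h6 := h.le_cent ht (h.conj_mem (h.inv_mod hG (h1 hy) (h'.sq y hy) hyW))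
  convert mul_mem h6 (mul_mem h4 h5) using 1
  calc ρ * ρ = ρ * (y * y) * ρ := by rw [h'.sq y hy, mul_one]
    _ = _ := by group

theorem core (two : ∀ w ∈ W, w ≠ 1 → IsPGroup 2 𝐂[w]) (h4 : Nat.card W ≤ 4) {w t : G}
    (hw : w ∈ W) (h1 : w ≠ 1) (ht : orderOf t = 2) (htw : t ∈ 𝐂[w])
    (hn : ∀ a ∈ 𝐂[w], a * t * a⁻¹ = t ∨ a * t * a⁻¹ = t * w) : IsPGroup 2 𝐂[t] := by
  have hw' := h.conj_mem hw
  have tt := mul_self_of_inv ht
  have ti := inv_of_inv ht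
  have h5 : t * (ρ * w * ρ⁻¹) * t⁻¹ ∈ W := by
    have e0 : t * (ρ * w * ρ⁻¹) * t⁻¹ =
      t * ((ρ * w * ρ⁻¹) * t * (ρ * w * ρ⁻¹)⁻¹) * (ρ * w * ρ⁻¹) := by
      rw [ti]; group
    rcases hn _ (h.le_cent hw hw') with e | e
    · rw [e0, e, tt, one_mul]; exact hw'
    · rw [e0, e, ← mul_assoc t, tt, one_mul]; exact mul_mem hw hw'
  have h6 : t ∈ 𝐍(W) := mem_normalizer_of_conj_mem fun x hx => by
    rcases (h.mem_iff h4 hw h1).1 hx with e | e | e | e <;> rw [e]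
    · simp
    · rwa [conj_eq_of_mem_cent1 htw]
    · exact h5
    · rw [← conj_mul, conj_eq_of_mem_cent1 htw]; exact mul_mem hw h5
  by_cases htW : t ∈ W
  · exact two t htW (ne_one_of_inv ht)
  obtain ⟨g, hg, h7, -, h8⟩ := h.partner hG hw h1 (two w hw h1)
  obtain ⟨y, hy, hyW⟩ := SetLike.not_le_iff_exists.1 h8
  have h' := h.conj g
  have hw2 : w ∈ g •ᶜ W := conj_eq_of_mem_cent1 hg ▸ conj_mem_map_conj hw
  have hyw := h'.le_cent hw2 hy
  have hv := h.mul_mem' hG h6 (h7 hy) tt (h'.sq y hy) htW hyW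
    ((two w hw h1).to_le (zpowers_le.2 (mul_mem htw hyw)))
  have h9 : y ∈ 𝐂[t * y] := mem_cent1.2 (by
    have e1 := h.inv hv
    rw [mul_inv_rev, h'.inv hy, ti] at e1
    rw [← mul_assoc, e1])
  have h10 : y ∉ 𝐂[ρ * w * ρ⁻¹] := fun e => hyW (h.cent_le hG (by
    rw [← h.eq_V h4 hw h1, cent_V]; exact ⟨hyw, e⟩))
  have h11 : t * y ∈ g •ᶜ W := by
    rcases (h.mem_iff h4 hw h1).1 hv with e | e | e | e
    · exact e ▸ one_mem _
    · exact e ▸ hw2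
    · exact absurd (e ▸ h9) h10
    · rw [e, mem_cent1_comm] at h9
      rw [mem_cent1_comm] at hyw h10
      exact absurd ((mul_mem_cancel_left hyw).1 h9) h10
  obtain ⟨t0, ht0, e⟩ := (mul_mem_cancel_right hy).1 h11
  change g * t0 * g⁻¹ = t at e
  rw [← e, pgroup_cent_conj]
  exact two t0 ht0 fun e1 => ne_one_of_inv ht (by rw [← e, e1]; group)

theorem not_two : ∃ w ∈ W, w ≠ 1 ∧ ¬ IsPGroup 2 𝐂[w] := by
  by_contra hc
  push Not at hc
  obtain ⟨w, hw, h1⟩ := exists_ne_one h.ne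
  obtain ⟨g, hg, h2, h3, h4⟩ := h.partner hG hw h1 (hc w hw h1)
  have h' := h.conj g
  have h5 := h.four_of_pair hG h' h2 h3 h4
  obtain ⟨y, hy, hyW⟩ := SetLike.not_le_iff_exists.1 h4
  have hc' : ∀ v ∈ g •ᶜ W, v ≠ 1 → IsPGroup 2 𝐂[v] := by
    rintro _ ⟨v, hv, rfl⟩ h6
    exact (pgroup_cent_conj g).2 (hc v hv fun e => h6 (by simp [e]))
  have hy1 : y ≠ 1 := fun e => hyW (e ▸ one_mem W)
  have hy2 := h'.ord hy hy1
  have yy := h'.sq y hy
  have yi := h'.inv hy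
  have hyC := hc' y hy hy1
  have h3' : ρ * ρ * ρ = 1 := by rw [← pow_three', ← h.three h5, pow_orderOf_eq_one]
  obtain ⟨a, ha, ea⟩ := h.surj (h.inv_mod hG (h2 hy) yy hyW)
  obtain ⟨σ, hσd⟩ : ∃ σ, σ = a * ρ * a⁻¹ := ⟨_, rfl⟩
  have hσ : Ir W σ := by
    have := h.conj a
    rwa [conj_eq_of_mem ha, ← hσd] at this
  have hi : y * σ * y⁻¹ = σ⁻¹ := by
    have e1 : σ = y * ρ * y⁻¹ * ρ⁻¹ := by
      calc σ = (a * ρ * a⁻¹ * ρ⁻¹) * ρ := by rw [hσd]; group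
        _ = y * ρ * y⁻¹ * ρ⁻¹ * (ρ * ρ * ρ) := by rw [ea]; group
        _ = _ := by rw [h3', mul_one]
    calc y * σ * y⁻¹ = (y * y) * ρ * y⁻¹ * ρ⁻¹ * y⁻¹ := by rw [e1]; group
      _ = ρ * y * ρ⁻¹ * y⁻¹ := by rw [yy, one_mul, yi]
      _ = σ⁻¹ := by rw [e1]; group
  have hyσ : y ∉ 𝐂[σ] := fun e => hσ.ne_one (eq_one_of_inv_of_comm hσ.odd' hi (mem_cent1'.1 e))
  have hM : IsCoatom 𝐍(zpowers σ) :=
    hG.coatom_p hσ.pr (isPGroup_zpowers rfl) (zpowers_ne_bot.2 hσ.ne_one)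
  obtain ⟨t0, ht0, ht1, ht2⟩ : ∃ t0, t0 ≠ 1 ∧ t0 ∈ 𝐂[σ] ∧ t0 ∈ 𝐂[y] := by
    by_contra hn
    push Not at hn
    have h6 : 𝐍(zpowers σ) ≤ 𝐍(W) := fun m hm => by
      obtain ⟨z, hz, h7⟩ := hG.dihedral hσ.pr hσ.odd hy2 hi hm
      refine (mul_mem_cancel_left (zpowers_le.2 hσ.norm (inv_mem hz))).1 ?_
      have h8 := conj_mem_of_mem_normalizer (mul_mem (le_normalizer (inv_mem hz)) hm)
        (mem_zpowers σ)
      generalize z⁻¹ * m = c at h7 h8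
      have h9 : σ ^ 2 = σ⁻¹ := eq_inv_of_mul_eq_one_left (by
        rw [← pow_succ, show 2 + 1 = orderOf σ from (hσ.three h5).symm, pow_orderOf_eq_one])
      classical
      rw [mem_zpowers_iff_mem_range_orderOf, hσ.three h5, Finset.mem_image] at h8
      obtain ⟨k, hk, e⟩ := h8
      rw [Finset.mem_range] at hk
      interval_cases k
      · exact absurd (e.symm.trans (pow_zero σ)) (conj_ne_one_iff.2 hσ.ne_one)
      · by_contra h10
        exact hn c (fun e1 => h10 (e1 ▸ one_mem _))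
          (mem_cent1_of_conj_eq (e.symm.trans (pow_one σ))) h7
      · by_contra h10
        refine hn (y * c) (fun e1 => h10 ?_) (mem_cent1_of_conj_eq ?_)
          (mul_mem (self_mem_cent1 y) h7)
        · rw [eq_inv_of_mul_eq_one_right e1]; exact inv_mem (h2 hy)
        · calc y * c * σ * (y * c)⁻¹ = y * (c * σ * c⁻¹) * y⁻¹ := by group
            _ = (y * σ * y⁻¹)⁻¹ := by rw [← e, h9]; group
            _ = σ := by rw [hi, inv_inv]
    have h7 := hG.eq_of_le hM h.ne (solvable_of_pgroup Nat.prime_two h.pgroup) h6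
    exact h1 (hσ.eq_one_of_norm hw (h7 ▸ le_normalizer hw))
  obtain ⟨t, ht, hot⟩ := exists_inv_zpowers (hyC.to_le (zpowers_le.2 ht2)) ht0
  have htσ : t ∈ 𝐂[σ] := zpowers_le.2 ht1 ht
  have hty : t ∈ 𝐂[y] := zpowers_le.2 ht2 ht
  have hnt : ¬ IsPGroup 2 𝐂[t] := not_pgroup_of_mem (mem_cent1_comm.1 htσ) hσ.pr hσ.odd
  have hF : Four t y := ⟨hot, hy2, mem_cent1.1 hty, fun e => hyσ (e ▸ htσ)⟩
  have hV := hG.coatom_p Nat.prime_two hF.isPGroup_V (ne_bot_of_mem (t_mem_V t y) hF.t1)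
  by_cases h6 : IsPGroup 2 𝐂[t * y]
  · have h7 : 𝐍(V t y) ≤ 𝐂[t] := fun n hn => by
      have h8 := (pgroup_cent_conj n).not.2 hnt
      rcases hF.mem_V.1 (conj_mem_of_mem_normalizer hn (t_mem_V t y)) with e | e | e | e
      · exact absurd e (conj_ne_one_iff.2 hF.t1)
      · exact mem_cent1_of_conj_eq e
      · exact absurd (e ▸ hyC) h8
      · exact absurd (e ▸ h6) h8
    have h8 : σ ∈ 𝐍(V t y) := by
      rw [← (hV.le_iff.1 h7).resolve_left (hG.coatom_cent hot).1]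
      exact mem_cent1_comm.1 htσ
    have h9 := hF.mul_self_of_mem (mul_mem (conj_mem_of_mem_normalizer h8 (s_mem_V t y))
      (inv_mem (s_mem_V t y)))
    have e1 : σ * y * σ⁻¹ * y⁻¹ = σ * σ := by
      calc σ * y * σ⁻¹ * y⁻¹ = σ * (y * σ * y⁻¹)⁻¹ := by group
        _ = _ := by rw [hi, inv_inv]
    rw [e1] at h9
    exact hσ.ne_one (eq_one_of_odd_of_mul_self hσ.odd' (eq_one_of_odd_of_mul_self
      (hσ.odd'.of_dvd_nat (orderOf_dvd_of_mem_zpowers (mul_mem (mem_zpowers σ) (mem_zpowers σ))))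
      h9))
  · have h7 : 𝐍(V t y) ≤ 𝐂[y] := fun n hn => by
      have h8 := (pgroup_cent_conj n).2 hyC
      rcases hF.mem_V.1 (conj_mem_of_mem_normalizer hn (s_mem_V t y)) with e | e | e | e
      · exact absurd e (conj_ne_one_iff.2 hy1)
      · exact absurd (e ▸ h8) hnt
      · exact mem_cent1_of_conj_eq e
      · exact absurd (e ▸ h8) h6
    have h8 := (hV.le_iff.1 h7).resolve_left (hG.coatom_cent hy2).1
    refine hnt (h'.core hG hc' (by rwa [card_map_conj]) hy hy1 hot hty fun b hb => ?_)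
    rcases hF.mem_V.1 (conj_mem_of_mem_normalizer (h8.le hb) (t_mem_V t y)) with e | e | e | e
    · exact absurd e (conj_ne_one_iff.2 hF.t1)
    · exact Or.inl e
    · exact absurd (e ▸ hyC) ((pgroup_cent_conj b).not.2 hnt)
    · exact Or.inr e

end Ir

end CfsgLib.H5.MN
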