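import Cfsg.Agent.Lib.MaxN.C
import Cfsg.Agent.Lib.BSW.Odd
import Cfsg.Agent.Lib.GW.PslA
import Cfsg.Agent.Lib.J1.A5
import Cfsg.Agent.Lib.FrobSL25
import Cfsg.Agent.Lib.H5NilpotentMaximal
import Cfsg.Agent.Lib.H1S4
import Cfsg.Agent.Lib.SL2Card
import Cfsg.Agent.Lib.CharBurnside

/-!
# Groups whose `{p, q}`-subgroups have maximal normalizers: identification of `PSL₂(13)`
-/

set_option autoImplicit false

namespace CfsgLib.H5.MN

open Subgroup Cfsg CfsgLib.FT.BGN CfsgLib.FT.U4 CfsgLib.GW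
open scoped MatrixGroups

variable {G : Type*} [Group G] [Finite G]

namespace Ir

variable {W : Subgroup G} {ρ : G} (h : Ir W ρ) (hG : Hy G) {w u : G} (hw : w ∈ W) (h1 : w ≠ 1)
  (hu : u ∈ 𝐂[w]) (hp : (orderOf u).Prime) (h2 : orderOf u ≠ 2)
include h hG hw h1 hu hp h2

theorem cent_eq : 𝐂[w] = 𝐍(zpowers u) := hG.cent_eq' (h.ord hw h1) hp h2 (mem_cent1'.1 hu)

theorem inverts {a : G} (ha : a ∈ W) (hc : a ∉ 𝐂[u]) : a * u * a⁻¹ = u⁻¹ :=
  (conj_eq_or_inv hp (pow_orderOf_eq_one u) (conj_mem_of_mem_normalizer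
    (h.cent_eq hG hw h1 hu hp h2 ▸ h.le_cent hw ha) (mem_zpowers u))
    (by rw [h.sq a ha]; simp)).resolve_left fun e => hc (mem_cent1_of_conj_eq e)

theorem ti {t : G} (ht : t ∈ W) (h3 : t ∈ 𝐂[u]) (h4 : ρ * t * ρ⁻¹ ∈ 𝐂[u]) : t = 1 := by
  by_contra h5
  have h6 := h.cent_eq hG ht h5 (mem_cent1_comm.1 h3) hp h2
  have h7 := h.cent_eq hG (h.conj_mem ht) (conj_ne_one_iff.2 h5) (mem_cent1_comm.1 h4) hp h2
  rw [cent1_conj, ← h6] at h7
  exact h5 (h.fix t ht (mem_cent1.1 (hG.norm_cent (h.ord ht h5)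
    (mem_normalizer_of_map_conj_eq h7))))

theorem le_four : Nat.card W ≤ 4 :=
  h.card_le_four (D := 𝐂[u]) (fun a ha b hb ha' hb' => mem_cent1_of_conj_eq (by
    calc a * b * u * (a * b)⁻¹ = a * (b * u * b⁻¹) * a⁻¹ := by group
      _ = (a * u * a⁻¹)⁻¹ := by rw [h.inverts hG hw h1 hu hp h2 hb hb']; group
      _ = u := by rw [h.inverts hG hw h1 hu hp h2 ha ha', inv_inv]))
    fun _ => h.ti hG hw h1 hu hp h2

theorem s_inv : ρ * w * ρ⁻¹ * u * (ρ * w * ρ⁻¹)⁻¹ = u⁻¹ :=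
  h.inverts hG hw h1 hu hp h2 (h.conj_mem hw) fun e =>
    h1 (h.ti hG hw h1 hu hp h2 hw (mem_cent1_comm.1 hu) e)

theorem s_inv' {z : G} (hz : z ∈ zpowers u) : ρ * w * ρ⁻¹ * z * (ρ * w * ρ⁻¹)⁻¹ = z⁻¹ := by
  obtain ⟨k, rfl⟩ := mem_zpowers_iff.1 hz
  rw [← conj_zpow, h.s_inv hG hw h1 hu hp h2, inv_zpow]

theorem dec {m : G} (hm : m ∈ 𝐂[w]) : ∃ z ∈ zpowers u, z⁻¹ * m ∈ W := by
  obtain ⟨z, hz, h3⟩ := hG.dihedral hp h2 (h.four hw h1).os (h.s_inv hG hw h1 hu hp h2)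
    (h.cent_eq hG hw h1 hu hp h2 ▸ hm)
  refine ⟨z, hz, h.cent_le hG ?_⟩
  rw [← h.eq_V (h.le_four hG hw h1 hu hp h2) hw h1, cent_V]
  exact ⟨mul_mem (zpowers_le.2 hu (inv_mem hz)) hm, h3⟩

theorem sylow : IsSylowIn 2 W ⊤ := by
  haveI := Fact.mk Nat.prime_two
  refine IsSylowIn.of_maximal le_top h.pgroup fun S hS hWS _ x hx => ?_
  haveI := (nontrivial_iff_ne_bot S).2 (ne_bot_of_mem (hWS hw) h1)
  haveI := hS.center_nontrivial
  obtain ⟨z, hz⟩ := exists_ne (1 : center S)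
  have hz' : ∀ y ∈ S, y * z.1.1 = z.1.1 * y := fun y hy =>
    congrArg Subtype.val (mem_center_iff.1 z.2 ⟨y, hy⟩)
  have hzW : z.1.1 ∈ W := h.cent_le hG (mem_cent.2 fun y hy => hz' y (hWS hy))
  have hz1 : z.1.1 ≠ 1 := fun e => hz (Subtype.ext (Subtype.ext e))
  obtain ⟨g, -, e⟩ := h.exists_conj (h.le_four hG hw h1 hu hp h2) hw h1 hzW hz1
  have hp' : (orderOf (g * u * g⁻¹)).Prime := by rwa [orderOf_conj]
  have h2' : orderOf (g * u * g⁻¹) ≠ 2 := by rwa [orderOf_conj]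
  obtain ⟨y, hy, h3⟩ := h.dec hG hzW hz1 (u := g * u * g⁻¹)
    (by rw [← e, cent1_conj]; exact conj_mem_map_conj hu) hp' h2' (mem_cent1.2 (hz' x hx))
  haveI := Fact.mk hp'
  have h4 : y = 1 := eq_one_of_mem_inf (IsPGroup.disjoint_of_ne _ 2 h2' _ _
    (isPGroup_zpowers rfl) hS).eq_bot hy (by simpa using (mul_mem_cancel_right hx).1 (hWS h3))
  simpa [h4] using h3

theorem norm_le : 𝐍(W) ≤ W ⊔ zpowers ρ := fun n hn => by
  obtain ⟨g, hg, e⟩ := h.exists_conj (h.le_four hG hw h1 hu hp h2) hw h1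
    (conj_mem_of_mem_normalizer hn hw) (conj_ne_one_iff.2 h1)
  have h3 : g⁻¹ * n ∈ 𝐂[w] := mem_cent1_of_conj_eq (by
    calc g⁻¹ * n * w * (g⁻¹ * n)⁻¹ = g⁻¹ * (n * w * n⁻¹) * g := by group
      _ = w := by rw [← e]; group)
  obtain ⟨z, hz, h4⟩ := h.dec hG hw h1 hu hp h2 h3
  have h5 : z ∈ 𝐍(W) := by
    simpa using (mul_mem_cancel_right (mul_mem (zpowers_le.2 h.norm (inv_mem hg)) hn)).1
      (le_normalizer h4)
  have h6 : z * z ∈ W := by
    have := mul_mem (conj_mem_of_mem_normalizer h5 (h.conj_mem hw)) (inv_mem (h.conj_mem hw))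
    convert this using 1
    calc z * z = z * (ρ * w * ρ⁻¹ * z⁻¹ * (ρ * w * ρ⁻¹)⁻¹) := by
          rw [h.s_inv' hG hw h1 hu hp h2 (inv_mem hz), inv_inv]
      _ = _ := by group
  have ho : ∀ y ∈ zpowers u, Odd (orderOf y) := fun y hy =>
    (hp.odd_of_ne_two h2).of_dvd_nat (orderOf_dvd_of_mem_zpowers hy)
  have h7 : z = 1 := eq_one_of_odd_of_mul_self (ho z hz)
    (eq_one_of_odd_of_mul_self (ho _ (mul_mem hz hz)) (h.sq _ h6))
  rw [h7, inv_one, one_mul] at h4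
  exact (mul_mem_cancel_left (mem_sup_right (inv_mem hg))).1 (mem_sup_left h4)

omit hG hp h2 in
theorem mem_K {x : G} : x ∈ zpowers u ⊔ zpowers w ↔ ∃ z ∈ zpowers u, x = z ∨ x = z * w := by
  rw [mem_sup_iff_of_le_normalizer' (zpowers_le.2 (cent_le_norm _
    ((cent_zpowers u).ge (mem_cent1_comm.1 hu))))]
  constructor
  · rintro ⟨z, hz, a, ha, rfl⟩
    rcases (mem_zpowers_inv (h.ord hw h1)).1 ha with rfl | rfl
    · exact ⟨z, hz, Or.inl (mul_one z)⟩
    · exact ⟨z, hz, Or.inr rfl⟩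
  · rintro ⟨z, hz, rfl | rfl⟩
    · exact ⟨x, hz, 1, one_mem _, mul_one x⟩
    · exact ⟨z, hz, w, mem_zpowers w, rfl⟩

omit hG in
theorem card_K : Nat.card (zpowers u ⊔ zpowers w : Subgroup G) = 2 * orderOf u := by
  haveI := Fact.mk hp
  rw [sup_comm, card_sup_of_disjoint (zpowers_le.2 (cent_le_norm _
    ((cent_zpowers u).ge (mem_cent1_comm.1 hu)))) (IsPGroup.disjoint_of_ne 2 _ h2.symm _ _
    (isPGroup_zpowers (h.ord hw h1)) (isPGroup_zpowers rfl)).eq_bot, Nat.card_zpowers,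
    Nat.card_zpowers, h.ord hw h1]

theorem setup : BSW.Setup (zpowers u ⊔ zpowers w) w (ρ * w * ρ⁻¹) := by
  have hK : zpowers u ⊔ zpowers w ≤ 𝐂[w] := sup_le (zpowers_le.2 hu) (zpowers_le_cent1 w)
  have hK' : zpowers u ⊔ zpowers w ≤ 𝐂[u] :=
    sup_le (zpowers_le_cent1 u) (zpowers_le.2 (mem_cent1_comm.1 hu))
  have ho : ∀ y ∈ zpowers u, Odd (orderOf y) := fun y hy =>
    (hp.odd_of_ne_two h2).of_dvd_nat (orderOf_dvd_of_mem_zpowers hy)
  have hc : ∀ z ∈ zpowers u, w * z = z * w := fun z hz => mem_cent1'.1 (zpowers_le.2 hu hz)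
  have h4 := h.le_four hG hw h1 hu hp h2
  have ww := h.sq w hw
  have hs := h.conj_mem hw
  have hzw : ∀ z ∈ zpowers u, z * w * (z * w) = z * z := fun z hz => by
    calc z * w * (z * w) = z * (w * z) * w := by group
      _ = z * z * (w * w) := by rw [hc z hz]; group
      _ = _ := by rw [ww, mul_one]
  refine ⟨h.ord hw h1, mem_sup_right (mem_zpowers w), fun x hx => mem_cent1.1 (hK hx),
    fun x hx e => ?_, ?_, h.comm hs hw, fun e => h1 (h.ti hG hw h1 hu hp h2 hw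
      (mem_cent1_comm.1 hu) (hK' e)), fun x hx hxK => ?_, fun x hx hx1 g hg => ?_, fun v hv => ?_⟩
  · obtain ⟨z, hz, rfl | rfl⟩ := (h.mem_K hw h1 hu).1 hx
    · exact Or.inl (eq_one_of_odd_of_mul_self (ho _ hz) e)
    · rw [eq_one_of_odd_of_mul_self (ho _ hz) ((hzw z hz).symm.trans e), one_mul]
      exact Or.inr rfl
  · rw [h.card_K hw h1 hu hp h2]
    have := hp.two_le
    omega
  · obtain ⟨z, hz, h3⟩ := h.dec hG hw h1 hu hp h2 (mem_cent1.2 hx)
    obtain ⟨c, rfl⟩ : ∃ c, x = z * c := ⟨z⁻¹ * x, by group⟩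
    rw [inv_mul_cancel_left] at h3
    have h5 : c ∉ 𝐂[u] := by
      have h6 : ρ * w * ρ⁻¹ ∉ 𝐂[u] := fun e =>
        h1 (h.ti hG hw h1 hu hp h2 hw (mem_cent1_comm.1 hu) e)
      rcases (h.mem_iff h4 hw h1).1 h3 with e | e | e | e <;> rw [e] at hxK ⊢
      · exact absurd ((h.mem_K hw h1 hu).2 ⟨z, hz, Or.inl (mul_one z)⟩) hxK
      · exact absurd ((h.mem_K hw h1 hu).2 ⟨z, hz, Or.inr rfl⟩) hxK
      · exact h6
      · exact fun e1 => h6 ((mul_mem_cancel_left (mem_cent1_comm.1 hu)).1 e1)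
    obtain ⟨k, rfl⟩ := mem_zpowers_iff.1 hz
    calc u ^ k * c * (u ^ k * c) = u ^ k * (c * u * c⁻¹) ^ k * (c * c) := by rw [conj_zpow]; group
      _ = 1 := by rw [h.inverts hG hw h1 hu hp h2 h3 h5, h.sq c h3]; group
  · have key : ∀ z ∈ zpowers u, z ≠ 1 → g ∈ 𝐂[z] → g * w = w * g := fun z hz hz1 hg => by
      rw [← mem_cent1, h.cent_eq hG hw h1 hu hp h2, ← zpowers_eq_of_card_prime
        (by rwa [Nat.card_zpowers]) hz hz1]
      exact cent_le_norm _ ((cent_zpowers z).ge hg)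
    obtain ⟨z, hz, rfl | rfl⟩ := (h.mem_K hw h1 hu).1 hx
    · exact key x hz hx1 (mem_cent1.2 hg)
    · by_cases h3 : z = 1
      · simpa [h3] using hg
      · refine key _ (mul_mem hz hz) (fun e => h3 (eq_one_of_odd_of_mul_self (ho _ hz) e)) ?_
        rw [← hzw z hz, mem_cent1_comm]
        exact mul_mem (mem_cent1'.2 hg) (mem_cent1'.2 hg)
  · haveI := Fact.mk Nat.prime_two
    obtain ⟨g, -, h3⟩ := (h.sylow hG hw h1 hu hp h2).exists_conj_le (isPGroup_zpowers hv) le_top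
    obtain ⟨g', -, e⟩ := h.exists_conj h4 hw h1 (h3 (conj_mem_map_conj (mem_zpowers v)))
      (conj_ne_one_iff.2 (ne_one_of_inv hv))
    exact ⟨g⁻¹ * g', by
      calc g⁻¹ * g' * w * (g⁻¹ * g')⁻¹ = g⁻¹ * (g' * w * g'⁻¹) * g := by group
        _ = v := by rw [e]; group⟩

end Ir

theorem psl_cent_comm {F : Type*} [Field F] (h2 : (2 : F) ≠ 0)
    {x : Matrix.ProjectiveSpecialLinearGroup (Fin 2) F} {n : ℕ} (hn : Odd n) (hx : x ^ n = 1)
    (h1 : x ≠ 1) : ∀ a ∈ 𝐂[x], ∀ b ∈ 𝐂[x], a * b = b * a := by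
  obtain ⟨X, rfl, hX⟩ := PA.exists_odd_lift hn hx
  have hc : X ∉ center SL(2, F) := fun e => h1 (BSW.piP_eq_one.2 e)
  intro a ha b hb
  obtain ⟨A, rfl⟩ := BSW.piP_surj a
  obtain ⟨B, rfl⟩ := BSW.piP_surj b
  obtain ⟨a0, a1, e1, e2, e3, e4⟩ :=
    SL2_exists_lin hc (PA.comm_of_piP_comm h2 hn hX (mem_cent1.1 ha)).symm
  obtain ⟨b0, b1, f1, f2, f3, f4⟩ :=
    SL2_exists_lin hc (PA.comm_of_piP_comm h2 hn hX (mem_cent1.1 hb)).symm
  rw [← map_mul, ← map_mul]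
  congr 1
  apply H1.SL2_ext <;> simp only [H1.SL2_mul_apply, e1, e2, e3, e4, f1, f2, f3, f4] <;> ring

/-- Generators of `SL₂(5)` in `SL₂(11)`. -/
def x11 : SL(2, ZMod 11) := ⟨!![0, 10; 1, 10], by decide⟩

/-- Generators of `SL₂(5)` in `SL₂(11)`. -/
def y11 : SL(2, ZMod 11) := ⟨!![0, 5; 2, 10], by decide⟩

theorem icoRel11 : Frob.IcoRel (x11 : Matrix (Fin 2) (Fin 2) (ZMod 11)) y11 !![4, 0; 0, 4] := by
  constructor <;> decide +kernel

theorem x11_ne : x11 0 1 ≠ 0 := by decide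

theorem two_ne11 : (2 : ZMod 11) ≠ 0 := by decide

theorem two_ne13 : (2 : ZMod 13) ≠ 0 := by decide

theorem exists_hom_psl_eleven : ∃ f : Frob.SL25 →* Matrix.ProjectiveSpecialLinearGroup (Fin 2)
    (ZMod 11), f Frob.sl25X ≠ 1 := by
  haveI : Fact (Nat.Prime 11) := ⟨by norm_num⟩
  obtain ⟨f, hf⟩ := Frob.exists_hom_sl25 (G := SL(2, ZMod 11))
    (ρ := Matrix.SpecialLinearGroup.coeMonoidHom) Subtype.val_injective
    (x := x11) (y := y11) icoRel11
  refine ⟨(BSW.piP (ZMod 11)).comp f, fun e => ?_⟩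
  have h1 := hf [true]
  simp only [Frob.gword, mul_one] at h1
  rw [MonoidHom.comp_apply, h1, BSW.piP_eq_one, SL2_mem_center_iff] at e
  exact x11_ne e.1

namespace Hy

variable (hG : Hy G)
include hG

theorem solvable_of_ne_top {R : Subgroup G} (hR : R ≠ ⊤) : Group.IsSolvable R := by
  by_contra hs
  obtain ⟨W, ρ, h, hW, hρ⟩ := hG.exists_ir hs
  obtain ⟨w, hw, h1, h3⟩ := h.not_two hG
  obtain ⟨u, hu, hp, h2⟩ := exists_odd_of_not_two h3
  have h4 := h.norm_le hG hw h1 hu hp h2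
  have h5 : W ⊔ zpowers ρ ≤ R := sup_le hW (zpowers_le.2 hρ)
  have h6 := ((hG.coatom_p Nat.prime_two h.pgroup h.ne).le_iff.1 (h4.trans h5)).resolve_left hR
  refine hs (isSolvable_of_two_primes Nat.prime_two h.pr fun r hr hd => ?_)
  rw [le_antisymm (h6.le.trans h4) h5, sup_comm] at hd
  rcases hr.dvd_mul.1 (hd.trans (card_sup_dvd_mul (zpowers_le.2 h.norm))) with h7 | h7
  · exact Or.inr (prime_eq_of_dvd h.pr hr (isPGroup_zpowers rfl) h7)
  · exact Or.inl (prime_eq_of_dvd Nat.prime_two hr h.pgroup h7)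

theorem not_psl_eleven (e : G ≃* Matrix.ProjectiveSpecialLinearGroup (Fin 2) (ZMod 11)) : False := by
  haveI : Fact (Nat.Prime 11) := ⟨by norm_num⟩
  obtain ⟨f, hf⟩ := exists_hom_psl_eleven
  let φ := e.symm.toMonoidHom.comp f
  have h1 : φ.range ≠ ⊤ := fun h => by
    have := card_dvd_of_surjective φ (MonoidHom.range_eq_top.1 h)
    rw [Nat.card_congr e.toEquiv, SL2C.card_PSL2 two_ne11, Nat.card_zmod, Frob.card_sl25] at this
    exact absurd this (by decide)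
  haveI := hG.solvable_of_ne_top h1
  haveI : Nontrivial φ.range := ⟨⟨⟨_, Frob.sl25X, rfl⟩, 1, fun h => hf (by
    simpa [φ] using congrArg Subtype.val h)⟩⟩
  refine (Group.IsSolvable.commutator_lt_top_of_nontrivial φ.range).ne ?_
  rw [_root_.commutator_def, ← map_top_of_surjective _ φ.rangeRestrict_surjective,
    ← map_commutator, ← _root_.commutator_def, Frob.sl25_commutator_eq_top]

theorem psl13 : Nonempty (G ≃* Matrix.ProjectiveSpecialLinearGroup (Fin 2) (ZMod 13)) := by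
  obtain ⟨W, ρ, h, -, -⟩ := hG.exists_ir (R := ⊤) fun e => hG.ns
    (solvable_of_surjective (f := (⊤ : Subgroup G).subtype) fun g => ⟨⟨g, mem_top g⟩, rfl⟩)
  obtain ⟨w, hw, h1, h3⟩ := h.not_two hG
  obtain ⟨u, hu, hp, h2⟩ := exists_odd_of_not_two h3
  have S := h.setup hG hw h1 hu hp h2
  have hK := h.card_K hw h1 hu hp h2
  have hρ := h.three (h.le_four hG hw h1 hu hp h2)
  obtain ⟨F, i1, i2, hF, ⟨e⟩⟩ := S.psl
  rw [hK] at hF
  have h4 : orderOf u = 3 := by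
    by_contra h4
    have h5 : ¬ BSW.InK (zpowers u ⊔ zpowers w) ρ := fun e1 => by
      have := S.orderOf_dvd_of_inK e1
      rw [hK, hρ] at this
      rcases Nat.prime_three.dvd_mul.1 this with h6 | h6
      · omega
      · exact h4 ((Nat.prime_dvd_prime_iff_eq Nat.prime_three hp).1 h6).symm
    have ho : Odd (Nat.card 𝐂[ρ]) := odd_card_of_forall fun v hv h6 =>
      h5 (S.inK_of_comm (S.inK_of_orderOf h6) (ne_one_of_inv h6) (mem_cent1'.1 hv))
    have hM := hG.coatom_p h.pr (isPGroup_zpowers rfl) (zpowers_ne_bot.2 h.ne_one)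
    by_cases h6 : 𝐍(zpowers ρ) ≤ 𝐂[ρ]
    · have hF2 : (2 : F) ≠ 0 := Ring.two_ne_zero fun e1 => by
        have := FiniteField.even_card_of_char_two e1
        omega
      refine hG.ns (isSolvable_of_abelian_coatom hM (isMulCommutative_iff'.2 fun a ha b hb =>
        e.injective ?_))
      have h7 : ∀ a ∈ 𝐍(zpowers ρ), e a ∈ 𝐂[e ρ] := fun a ha => mem_cent1.2 (by
        rw [← map_mul, mem_cent1.1 (h6 ha), map_mul])
      rw [map_mul, map_mul]
      exact psl_cent_comm hF2 h.odd' (by rw [← map_pow, pow_orderOf_eq_one, map_one])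
        (by simpa using h.ne_one) _ (h7 a ha) _ (h7 b hb)
    · obtain ⟨n, hn, hn'⟩ := SetLike.not_le_iff_exists.1 h6
      have h7 : n * ρ * n⁻¹ = ρ⁻¹ := by
        have h8 := conj_mem_of_mem_normalizer hn (mem_zpowers ρ)
        classical
        rw [mem_zpowers_iff_mem_range_orderOf, hρ, Finset.mem_image] at h8
        obtain ⟨k, hk, e1⟩ := h8
        rw [Finset.mem_range] at hk
        interval_cases k
        · exact absurd (e1.symm.trans (pow_zero ρ)) (conj_ne_one_iff.2 h.ne_one)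
        · exact absurd (mem_cent1_of_conj_eq (e1.symm.trans (pow_one ρ))) hn'
        · rw [← e1]
          exact eq_inv_of_mul_eq_one_left (by
            rw [← pow_succ, show 2 + 1 = orderOf ρ from hρ.symm, pow_orderOf_eq_one])
      obtain ⟨v, -, ⟨k, hk⟩, hv⟩ := H1.exists_two_element_inverting h7
      have h8 : v * v ∈ 𝐂[ρ] := mem_cent1_of_conj_eq (by
        calc v * v * ρ * (v * v)⁻¹ = v * (v * ρ * v⁻¹) * v⁻¹ := by group
          _ = (v * ρ * v⁻¹)⁻¹ := by nth_rewrite 1 [hv]; group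
          _ = ρ := by rw [hv, inv_inv])
      have vv : v * v = 1 := by
        rw [← orderOf_eq_one_iff]
        refine Nat.eq_one_of_dvd_coprimes (Nat.Coprime.pow_right k
          (odd_orderOf_of_mem ho h8).coprime_two_right) dvd_rfl (orderOf_dvd_of_pow_eq_one ?_)
        rw [(Commute.refl v).mul_pow, hk, one_mul]
      have hv2 := inv_of_mul_self vv (S.ne_one_of_inverts h5 hv)
      have h9 : 𝐂[ρ] = zpowers ρ := le_antisymm (fun c hc => by
        obtain ⟨z, hz, h10⟩ := hG.dihedral h.pr h.odd hv2 hv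
          (cent_le_norm _ ((cent_zpowers ρ).ge hc))
        have h11 := mul_mem (zpowers_le_cent1 ρ (inv_mem hz)) hc
        rwa [← inv_mul_eq_one.1 (eq_one_of_inv_of_comm (odd_orderOf_of_mem ho h11)
          (S.inverts_cent h5 vv hv h11) (mem_cent1.1 h10))]) (zpowers_le_cent1 ρ)
      have h10 := S.iota_eq_card h5 vv hv
      rw [h9, Nat.card_zpowers, hρ] at h10
      haveI := Fintype.ofFinite G
      obtain ⟨ε, hε, -, h11, -⟩ := S.char_main
      have h12 := h11 ρ h5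
      have h13 := hp.two_le
      rw [h10, hK] at h12
      push_cast at h12
      rcases hε with rfl | rfl <;> omega
  rw [h4] at hF
  rcases hF with hF | hF
  · exact ⟨e.trans (J1.pslCongr (ZMod.ringEquivOfPrime F (by norm_num) hF).symm)⟩
  · exact (hG.not_psl_eleven (e.trans
      (J1.pslCongr (ZMod.ringEquivOfPrime F (by norm_num) (show Fintype.card F = 11 by omega)).symm))).elim

end Hy

end CfsgLib.H5.MN
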