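import Cfsg.Agent.Lib.MaxN.D
import Cfsg.Agent.Lib.SW.Cov
import Cfsg.Agent.Lib.PGroupBasic

/-!
# Groups whose `{p, q}`-subgroups have maximal normalizers: auxiliary facts for the lifting
-/

set_option autoImplicit false

namespace CfsgLib.H5.MN

open Subgroup Cfsg CfsgLib.FT.BGN CfsgLib.FT.U4 CfsgLib.GW
open scoped MatrixGroups commutatorElement

variable {G : Type*} [Group G]

theorem dvd_choose_two {p : ℕ} (hp : Odd p) (m : ℕ) : p ∣ (p ^ m).choose 2 := by
  cases m with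
  | zero => simp
  | succ m =>
    obtain ⟨t, ht⟩ := hp.pow (n := m + 1)
    rw [Nat.choose_two_right]
    nth_rewrite 2 [ht]
    rw [Nat.add_sub_cancel, mul_left_comm, Nat.mul_div_cancel_left _ two_pos]
    exact (dvd_pow_self p m.succ_ne_zero).mul_right t

theorem commutator_mem_inf {a b : G} (ha : a ∈ 𝐍(zpowers b)) (hb : b ∈ 𝐍(zpowers a)) :
    ⁅a, b⁆ ∈ zpowers a ⊓ zpowers b :=
  comm_le_inf (zpowers_le.2 ha) (zpowers_le.2 hb)
    (commutator_mem_commutator (mem_zpowers a) (mem_zpowers b))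

theorem mem_sup_sq {Q : Subgroup G} {y x : G} (hn : y ∈ 𝐍(Q)) (h2 : y * y ∈ Q)
    (hx : x ∈ Q ⊔ zpowers y) : x ∈ Q ∨ x * y⁻¹ ∈ Q := by
  obtain ⟨q, hq, _, ⟨i, rfl⟩, rfl⟩ := (mem_sup_iff_of_le_normalizer' (zpowers_le.2 hn)).1 hx
  have h3 : ∀ j : ℤ, y ^ (2 * j) ∈ Q := fun j => by
    rw [zpow_mul, zpow_two]; exact zpow_mem h2 j
  obtain ⟨j, rfl | rfl⟩ := Int.even_or_odd' i
  · exact Or.inl (mul_mem hq (h3 j))
  · refine Or.inr ?_
    simp only [zpow_add, zpow_one, mul_assoc, mul_inv_cancel, mul_one]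
    exact mul_mem hq (h3 j)

theorem pgroup_zpowers_of_pow {x : G} {p k : ℕ} (h : x ^ p ^ k = 1) : IsPGroup p (zpowers x) := by
  rintro ⟨_, i, rfl⟩
  refine ⟨k, Subtype.ext ?_⟩
  simp only [SubgroupClass.coe_pow, OneMemClass.coe_one]
  rw [← zpow_natCast, ← zpow_mul, mul_comm, zpow_mul, zpow_natCast, h, one_zpow]

variable [Finite G]

theorem dedekind_aux {S : Subgroup G} {p : ℕ} (hp : p.Prime) (hp2 : Odd p)
    (h : ∀ x ∈ S, ∀ k, x ^ p ^ k = 1 → S ≤ 𝐍(zpowers x)) (m : ℕ) :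
    ∀ b ∈ S, b ^ p ^ m = 1 → ∀ a ∈ S, ∀ n, a ^ p ^ n = 1 → Commute a b := by
  haveI := Fact.mk hp
  induction m with
  | zero => intro b _ hb a _ _ _; rw [pow_zero, pow_one] at hb; rw [hb]; exact Commute.one_right a
  | succ m ih =>
    intro b hb hbm a ha n han
    by_cases h1 : b ^ p ^ m = 1
    · exact ih b hb h1 a ha n han
    have key : ∀ d ∈ S, ∀ k, d ^ p ^ k = 1 →
        ⁅d, b⁆ ∈ zpowers d ⊓ zpowers b ∧ ⁅d, b⁆ ^ p = 1 := fun d hd k hk => by
      have h2 := commutator_mem_inf (h b hb _ hbm hd) (h d hd k hk hb)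
      refine ⟨h2, ?_⟩
      rw [← PGrp.commutatorElement_pow_right (commute_of_mem_zpowers h2.2 (mem_zpowers b)),
        commutatorElement_eq_one_iff_commute]
      exact ih _ (pow_mem hb p) (by rw [← pow_mul, ← pow_succ', hbm]) d hd k hk
    obtain ⟨n, -, ho⟩ := (Nat.dvd_prime_pow hp).1 (orderOf_dvd_of_pow_eq_one han)
    replace han : a ^ p ^ n = 1 := by rw [← ho, pow_orderOf_eq_one]
    by_cases h2 : n ≤ m
    · exact (ih a ha (by rw [← orderOf_dvd_iff_pow_eq_one, ho]; exact pow_dvd_pow p h2) b hb _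
        hbm).symm
    obtain ⟨l, rfl⟩ : ∃ l, n = l + m + 1 := ⟨n - m - 1, by omega⟩
    by_contra hc
    obtain ⟨h3, h4⟩ := key a ha _ han
    have h5 := orderOf_eq_prime h4 (mt commutatorElement_eq_one_iff_commute.1 hc)
    have h6 : orderOf (b ^ p ^ m) = p := orderOf_eq_prime (by rw [← pow_mul, ← pow_succ, hbm]) h1
    have h7 : orderOf (a ^ p ^ (l + m)) = p :=
      orderOf_eq_prime (by rw [← pow_mul, ← pow_succ, han]) fun e => by
        rw [← orderOf_dvd_iff_pow_eq_one, ho, Nat.pow_dvd_pow_iff_le_right hp.one_lt] at e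
        omega
    have h8 := eq_of_le_cyclic (C := zpowers b) inferInstance
      (zpowers_le.2 (pow_mem (mem_zpowers b) (p ^ m))) (zpowers_le.2 h3.2)
      (by rw [Nat.card_zpowers, Nat.card_zpowers, h5, h6])
    have h9 := eq_of_le_cyclic (C := zpowers a) inferInstance (zpowers_le.2 h3.1)
      (zpowers_le.2 (pow_mem (mem_zpowers a) (p ^ (l + m))))
      (by rw [Nat.card_zpowers, Nat.card_zpowers, h5, h7])
    obtain ⟨j, hj⟩ := mem_zpowers_iff.1 ((h8.trans h9).le (mem_zpowers _))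
    obtain ⟨d, hd⟩ : ∃ d, d = ((a ^ p ^ l) ^ j)⁻¹ := ⟨_, rfl⟩
    have hda : d ∈ zpowers a := hd ▸ inv_mem (zpow_mem (pow_mem (mem_zpowers a) _) j)
    have hdS : d ∈ S := zpowers_le.2 ha hda
    have hdn : d ^ p ^ (l + m + 1) = 1 := by
      rw [← ho, ← orderOf_dvd_iff_pow_eq_one]; exact orderOf_dvd_of_mem_zpowers hda
    obtain ⟨h10, h11⟩ := key d hdS _ hdn
    have h12 : (b * d) ^ p ^ m = 1 := by
      obtain ⟨t, ht⟩ := dvd_choose_two hp2 m
      rw [PGrp.mul_pow_eq_of_commute_commutator (commute_of_mem_zpowers h10.2 (mem_zpowers b))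
        (commute_of_mem_zpowers h10.1 (mem_zpowers d)), ht, pow_mul, h11, one_pow, mul_one, hd,
        inv_pow, mul_inv_eq_one, ← hj, ← zpow_natCast _ (p ^ m), ← zpow_mul, mul_comm j, zpow_mul,
        zpow_natCast, ← pow_mul, ← pow_add]
    have h13 := (ih _ (mul_mem hb hdS) h12 a ha _ han).mul_right
      (commute_of_mem_zpowers (mem_zpowers a) hda).inv_right
    rw [mul_inv_cancel_right] at h13
    exact hc h13

/-- Dedekind groups of odd order are abelian. -/
theorem dedekind_odd {S : Subgroup G} (ho : Odd (Nat.card S))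
    (h : ∀ x ∈ S, ∀ p k : ℕ, p.Prime → x ^ p ^ k = 1 → S ≤ 𝐍(zpowers x)) : IsMulCommutative S := by
  refine isMulCommutative_iff'.2 fun x hx y hy => mem_cent1.1 (le_of_forall_primePow_mem
    (fun a ha p k hp hk => mem_cent1_comm.1 (le_of_forall_primePow_mem
      (fun b hb q l hq hl => ?_) hy)) hx)
  have hk' : a ^ p ^ k = 1 := by rw [← hk, pow_orderOf_eq_one]
  have hl' : b ^ q ^ l = 1 := by rw [← hl, pow_orderOf_eq_one]
  by_cases h1 : b = 1
  · exact h1 ▸ one_mem _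
  by_cases e : p = q
  · subst e
    have h2 : Odd p := (odd_orderOf_of_mem ho hb).of_dvd_nat (hl ▸ dvd_pow_self p (by
      rintro rfl
      exact h1 (by simpa using hl')))
    exact mem_cent1'.2 (dedekind_aux hp h2 (fun x hx k => h x hx p k hp) l b hb hl' a ha k hk')
  · haveI := Fact.mk hp
    haveI := Fact.mk hq
    have := commutator_mem_inf (h b hb q l hq hl' ha) (h a ha p k hp hk' hb)
    rw [(IsPGroup.disjoint_of_ne p q e _ _ (pgroup_zpowers_of_pow hk')
      (pgroup_zpowers_of_pow hl')).eq_bot, mem_bot, commutatorElement_eq_one_iff_commute] at this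
    exact mem_cent1'.2 this

theorem Hy.not_norm_le_cent (hG : Hy G) {F : Type*} [Field F] (h2 : (2 : F) ≠ 0)
    (e : G ≃* Matrix.ProjectiveSpecialLinearGroup (Fin 2) F) {x : G} (hp : (orderOf x).Prime)
    (hx : orderOf x ≠ 2) : ¬ 𝐍(zpowers x) ≤ 𝐂[x] := fun h6 => by
  have h1 : x ≠ 1 := fun e => by simp [e, Nat.not_prime_one] at hp
  refine hG.ns (isSolvable_of_abelian_coatom (hG.coatom_p hp (isPGroup_zpowers rfl)
    (zpowers_ne_bot.2 h1)) (isMulCommutative_iff'.2 fun a ha b hb => e.injective ?_))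
  have h7 : ∀ a ∈ 𝐍(zpowers x), e a ∈ 𝐂[e x] := fun a ha => mem_cent1.2 (by
    rw [← map_mul, mem_cent1.1 (h6 ha), map_mul])
  rw [map_mul, map_mul]
  exact psl_cent_comm h2 (hp.odd_of_ne_two hx) (by rw [← map_pow, pow_orderOf_eq_one, map_one])
    (by simpa using h1) _ (h7 a ha) _ (h7 b hb)

theorem card_psl13 : Nat.card (Matrix.ProjectiveSpecialLinearGroup (Fin 2) (ZMod 13)) = 1092 := by
  haveI : Fact (Nat.Prime 13) := ⟨by norm_num⟩
  rw [SL2C.card_PSL2 two_ne13, Nat.card_zmod]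
  norm_num

theorem oc_psl13 : SW.OC (Matrix.ProjectiveSpecialLinearGroup (Fin 2) (ZMod 13)) := by
  intro p hp h2 P hP
  haveI := Fact.mk hp
  obtain ⟨k, hk⟩ := IsPGroup.iff_card.1 hP
  have h1 := card_subgroup_dvd_card P
  rw [card_psl13, hk] at h1
  refine isCyclic_of_card_dvd_prime (p := p) ?_
  rw [hk]
  rcases k with _ | _ | k
  · simp
  · simp
  · have h3 : p * p ∣ 1092 := Dvd.dvd.trans ⟨p ^ k, by ring⟩ h1
    have h4 : p ≤ 33 := by
      have := Nat.le_of_dvd (by norm_num) h3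
      nlinarith
    have h5 := hp.two_le
    interval_cases p <;> omega

/-- `f` is the quotient map by the solvable radical. -/
structure Lf {X : Type*} [Group X] (f : G →* X) : Prop where
  surj : Function.Surjective f
  sol : Group.IsSolvable f.ker
  hy : Hy X
  lift : ∀ (H : Subgroup G) (p q : ℕ), p.Prime → q.Prime →
    (∀ r : ℕ, r.Prime → r ∣ Nat.card H → r = p ∨ r = q) → ¬ H ≤ f.ker →
    (𝐍(H.map f)).comap f ≤ 𝐍(H)

theorem lf_quot (hG : ¬ Group.IsSolvable G) (h : ∀ H : Subgroup G, ¬ H.IsSubnormal →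
      (∃ p q : ℕ, p.Prime ∧ q.Prime ∧ ∀ r : ℕ, r.Prime → r ∣ Nat.card H → r = p ∨ r = q) →
      IsCoatom 𝐍(H)) : Lf (QuotientGroup.mk' (solvableRadical G)) := by
  set f := QuotientGroup.mk' (solvableRadical G) with hf
  have hs : Function.Surjective f := QuotientGroup.mk'_surjective _
  have hk : f.ker = solvableRadical G := QuotientGroup.ker_mk' _
  have nn : ∀ H : Subgroup (G ⧸ solvableRadical G), H ≠ ⊥ → Group.IsSolvable H → 𝐍(H) ≠ ⊤ :=
    fun H h1 h2 h3 => h1 (by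
      haveI := normal_of_le_normalizer_top h3.ge
      exact le_bot_iff.1 (solvableRadical_quotient_solvableRadical (G := G) ▸
        le_solvableRadical h2))
  have key : ∀ (H : Subgroup G) (p q : ℕ), p.Prime → q.Prime →
      (∀ r : ℕ, r.Prime → r ∣ Nat.card H → r = p ∨ r = q) → ¬ H ≤ f.ker →
      IsCoatom 𝐍(H) ∧ (𝐍(H.map f)).comap f = 𝐍(H) := fun H p q hp hq h1 h2 => by
    have h3 := isSolvable_of_two_primes hp hq h1
    have h4 := h H (fun e => h2 ((le_solvableRadical_of_isSubnormal e h3).trans hk.ge)) ⟨p, q, hp, hq, h1⟩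
    refine ⟨h4, (h4.le_iff.1 (map_le_iff_le_comap.1 (le_normalizer_map f))).resolve_left
      fun e => nn _ (fun e1 => h2 ((map_eq_bot_iff H).1 e1)) (isSolvable_map h3 f) ?_⟩
    rw [← map_comap_eq_self_of_surjective hs 𝐍(H.map f), e, map_top_of_surjective f hs]
  refine ⟨hs, isSolvable_of_le solvableRadical_isSolvable hk.le, ⟨fun e => hG (isSolvable_of_normal_of_quotient _
    solvableRadical_isSolvable e), nn, fun H p q hp hq h1 h2 => ?_⟩,
    fun H p q hp hq h1 h2 => (key H p q hp hq h1 h2).2.le⟩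
  obtain ⟨L, hL, h3⟩ := Hall.exists_isPiSubgroup_map_eq (π := {p, q})
    (PiSep.of_isSolvable (isSolvable_comap_mk' solvableRadical_isSolvable
      (isSolvable_of_two_primes hp hq h2))) (f.subgroupComap_surjective_of_surjective H hs)
    (K := ⊤) (fun r hr hd => h2 r hr (by rwa [card_top] at hd))
  have h4 : (L.map (H.comap f).subtype).map f = H := le_antisymm
    (map_le_iff_le_comap.2 (map_subtype_le L)) fun y hy => by
      obtain ⟨x, hx, e⟩ := h3.ge (mem_top ⟨y, hy⟩)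
      exact ⟨x, ⟨x, hx, rfl⟩, congrArg Subtype.val e⟩
  obtain ⟨h5, h6⟩ := key (L.map (H.comap f).subtype) p q hp hq
    (fun r hr hd => hL r hr (by rwa [card_map_subtype] at hd))
    fun e => h1 (h4 ▸ (Subgroup.map_eq_bot_iff _).2 e)
  rw [h4] at h6
  rw [← map_comap_eq_self_of_surjective hs 𝐍(H), h6]
  exact isCoatom_map_of_surjective hs h5 (h6 ▸ ker_le_comap f _)

end CfsgLib.H5.MN
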