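import Cfsg.Agent.Lib.MaxN.E

/-!
# Groups whose `{p, q}`-subgroups have maximal normalizers: lifting over the solvable radical
-/

set_option autoImplicit false

namespace CfsgLib.H5.MN

open Subgroup Cfsg CfsgLib.FT.BGN CfsgLib.FT.U4 CfsgLib.GW
open scoped MatrixGroups commutatorElement

variable {G X : Type*} [Group G] [Finite G] [Group X] [Finite X] {f : G →* X}

namespace Lf

variable (h : Lf f)
include h

theorem lift_p {p : ℕ} (hp : p.Prime) {H : Subgroup G} (hH : IsPGroup p H) (h1 : ¬ H ≤ f.ker) :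
    (𝐍(H.map f)).comap f ≤ 𝐍(H) :=
  h.lift H p p hp hp (fun _ hr hd => Or.inl (prime_eq_of_dvd hp hr hH hd)) h1

theorem exists_cent [IsSimpleGroup X] {p : ℕ} (hp : p.Prime) (hd : p ∣ Nat.card X) :
    ∃ A : Subgroup G, A.Normal ∧ A.map f = ⊤ ∧
      ∀ g ∈ A, ∀ n ∈ f.ker, IsPGroup p (zpowers ⁅n, g⁆) := by
  haveI := Fact.mk hp
  set O := piCoreOf {p} f.ker with hO
  haveI : O.Normal := normal_of_le_normalizer_top
    ((normalizer_eq_top f.ker).ge.trans (norm_le_norm_pcore _ _))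
  let φ := QuotientGroup.mk' O
  haveI : (f.ker.map φ).Normal := Normal.map inferInstance φ (QuotientGroup.mk'_surjective O)
  have key : ∀ g, g ∈ (𝐂(f.ker.map φ)).comap φ ↔ ∀ n ∈ f.ker, ⁅n, g⁆ ∈ O := fun g => by
    rw [mem_comap, mem_cent]
    have e : ∀ n, ⁅n, g⁆ ∈ O ↔ φ n * φ g = φ g * φ n := fun n => by
      rw [← QuotientGroup.eq_one_iff, ← commutatorElement_eq_one_iff_mul_comm,
        ← map_commutatorElement]
      rfl
    exact ⟨fun H n hn => (e n).2 (H _ ⟨n, hn, rfl⟩), by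
      rintro H _ ⟨n, hn, rfl⟩; exact (e n).1 (H n hn)⟩
  refine ⟨(𝐂(f.ker.map φ)).comap φ, inferInstance, ?_, fun g hg n hn =>
    (pcore_pgroup p f.ker).to_le (zpowers_le.2 ((key g).1 hg n hn))⟩
  obtain ⟨y, hy⟩ := exists_prime_orderOf_dvd_card' p hd
  obtain ⟨x0, rfl⟩ := h.surj y
  obtain ⟨x, -, e, h2⟩ := exists_lift_isPiNum f (π := {p}) x0 (by rw [hy]; exact isPiNum_prime hp rfl)
  have h3 : IsPGroup p (zpowers x) :=
    isPGroup_zpowers_iff.2 ((isPiNum_singleton_iff hp (orderOf_pos x).ne').1 h2)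
  have h4 : f x ≠ 1 := fun e1 => by
    rw [← e, e1, orderOf_one] at hy
    exact hp.one_lt.ne hy
  have h5 : f.ker ≤ 𝐍(zpowers x) :=
    (ker_le_comap f _).trans (h.lift_p hp h3 fun e1 => h4 (e1 (mem_zpowers x)))
  refine (IsSimpleGroup.eq_bot_or_eq_top_of_normal _
    (Normal.map inferInstance f h.surj)).resolve_left fun e1 => h4 (mem_bot.1 (e1.le
      ⟨x, (key x).2 fun n hn => ?_, rfl⟩))
  refine le_pcore (π := {p}) (A := f.ker ⊓ zpowers x) inf_le_left ?_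
    (isPiSubgroup_of_isPGroup (h3.to_le inf_le_right) rfl) (comm_le_inf h5
      (le_top.trans (normalizer_eq_top _).ge) (commutator_mem_commutator hn (mem_zpowers x)))
  exact (le_inf le_normalizer h5).trans inf_normalizer_le_normalizer_inf

theorem exists_K [IsSimpleGroup X] (hX : commutator X = ⊤) {p q : ℕ} (hp : p.Prime) (hq : q.Prime)
    (hpq : p ≠ q) (hd : p ∣ Nat.card X) (hd' : q ∣ Nat.card X) :
    ∃ K : Subgroup G, K.Normal ∧ K.map f = ⊤ ∧ K ≤ 𝐂(f.ker) ∧ commutator K = ⊤ := by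
  obtain ⟨A, i1, h1, h2⟩ := h.exists_cent hp hd
  obtain ⟨B, i2, h3, h4⟩ := h.exists_cent hq hd'
  haveI := Fact.mk hp
  haveI := Fact.mk hq
  have h5 : (𝐂(f.ker)).map f = ⊤ := by
    refine top_le_iff.1 (le_trans ?_ (map_mono ((commutator_le_inf A B).trans fun g hg =>
      mem_cent.2 fun n hn => ?_)))
    · rw [map_commutator, h1, h3, ← _root_.commutator_def, hX]
    · exact commutatorElement_eq_one_iff_mul_comm.1 (eq_one_of_mem_inf
        (IsPGroup.disjoint_of_ne p q hpq _ _ (h2 g hg.1 n hn) (h4 g hg.2 n hn)).eq_bot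
        (mem_zpowers _) (mem_zpowers _))
  have h6 : ⁅𝐂(f.ker), 𝐂(f.ker)⁆.map f = ⊤ := by
    rw [map_commutator, h5, ← _root_.commutator_def, hX]
  have h7 : ⁅𝐂(f.ker), 𝐂(f.ker)⁆ ≤ 𝐂(f.ker) := commutator_le_left _ _
  refine ⟨⁅𝐂(f.ker), 𝐂(f.ker)⁆, inferInstance, h6, h7, map_injective (subtype_injective _) ?_⟩
  rw [map_subtype_commutator, ← MonoidHom.range_eq_map, range_subtype]
  refine le_antisymm (commutator_le_left _ _) (commutator_le.2 fun a ha b hb => ?_)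
  have h8 : ∀ a ∈ 𝐂(f.ker), ∃ k ∈ ⁅𝐂(f.ker), 𝐂(f.ker)⁆, ∃ z ∈ f.ker, a = k * z := fun a _ => by
    obtain ⟨k, hk, e⟩ := h6.ge (mem_top (f a))
    exact ⟨k, hk, k⁻¹ * a, by rw [MonoidHom.mem_ker, map_mul, map_inv, e, inv_mul_cancel], by group⟩
  obtain ⟨k, hk, z, hz, rfl⟩ := h8 a ha
  obtain ⟨k', hk', z', hz', e⟩ := h8 b hb
  have h9 : ⁅k * z, b⁆ = ⁅k, k'⁆ := by
    calc ⁅k * z, b⁆ = k * (z * b) * z⁻¹ * k⁻¹ * b⁻¹ := by rw [commutatorElement_def]; group
      _ = k * k' * (z' * k⁻¹) * z'⁻¹ * k'⁻¹ := by rw [mem_cent.1 hb z hz, e]; group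
      _ = _ := by rw [mem_cent.1 (inv_mem (h7 hk)) z' hz', commutatorElement_def]; group
  exact h9 ▸ commutator_mem_commutator hk hk'

variable {K : Subgroup G} [K.Normal] (h1 : K.map f = ⊤) (h2 : K ≤ 𝐂(f.ker))
  (hZ : ∀ z ∈ K, z ∈ f.ker → z * z = 1)
include h1 h2 hZ

omit h h1 h2 [Finite G] [Finite X] [K.Normal] in
theorem notMem_ker {x : G} (hx : x ∈ K) (hp : (orderOf x).Prime) (hx2 : orderOf x ≠ 2) :
    x ∉ f.ker := fun e => by
  have := eq_one_of_odd_of_mul_self (hp.odd_of_ne_two hx2) (hZ x hx e)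
  simp [this, Nat.not_prime_one] at hp

theorem no_odd {F : Type*} [Field F] (hF : (2 : F) ≠ 0)
    (e : X ≃* Matrix.ProjectiveSpecialLinearGroup (Fin 2) F) {x n : G} (hx : x ∈ K)
    (hn : n ∈ f.ker) (hp : (orderOf x).Prime) (hx2 : orderOf x ≠ 2) (ho : orderOf n = orderOf x) :
    False := by
  have h3 := notMem_ker hZ hx hp hx2
  haveI := Fact.mk hp
  have h4 : orderOf (f x) = orderOf x :=
    orderOf_eq_prime (by rw [← map_pow, pow_orderOf_eq_one, map_one]) h3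
  have hc : Commute x n := (mem_cent.1 (h2 hx) n hn).symm
  have h5 : (zpowers (x * n)).map f = zpowers (f x) := by
    rw [MonoidHom.map_zpowers, map_mul, MonoidHom.mem_ker.1 hn, mul_one]
  have h6 := h.lift_p hp (pgroup_zpowers_of_pow (x := x * n) (k := 1) (by
    rw [pow_one, hc.mul_pow, pow_orderOf_eq_one, ← ho, pow_orderOf_eq_one, one_mul]))
    fun e1 => h3 ((mul_mem_cancel_right hn).1 (e1 (mem_zpowers _)))
  refine h.hy.not_norm_le_cent hF e (h4 ▸ hp) (h4 ▸ hx2) fun y hy => ?_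
  obtain ⟨k, hk, rfl⟩ := mem_map.1 (h1.ge (mem_top y))
  obtain ⟨i, hi⟩ := mem_zpowers_iff.1
    (conj_mem_of_mem_normalizer (h6 (by rwa [h5])) (mem_zpowers (x * n)))
  rw [hc.mul_zpow, ← _root_.conj_mul, conj_eq_of_mem_cent1 (cent_le_cent1 hn (h2 hk))] at hi
  have h7 : (x ^ i)⁻¹ * (k * x * k⁻¹) = n ^ (i - 1) := by
    rw [inv_mul_eq_iff_eq_mul, zpow_sub, zpow_one, ← mul_assoc, hi]; group
  have h8 : n ^ (i - 1) = 1 := eq_one_of_odd_of_mul_self
    ((ho ▸ hp.odd_of_ne_two hx2 : Odd (orderOf n)).of_dvd_nat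
      (orderOf_dvd_of_mem_zpowers (zpow_mem (mem_zpowers n) _)))
    (hZ _ (h7 ▸ mul_mem (inv_mem (zpow_mem hx i)) (mul_mem (mul_mem hk hx) (inv_mem hk)))
      (zpow_mem hn _))
  rw [h8, inv_mul_eq_one] at h7
  rw [← orderOf_dvd_iff_zpow_eq_one, ho, orderOf_dvd_iff_zpow_eq_one, zpow_sub, zpow_one,
    mul_inv_eq_one] at h8
  refine mem_cent1_of_conj_eq ?_
  rw [← map_inv, ← map_mul, ← map_mul, ← h7, h8]

theorem no_two {n : G} (hn : n ∈ f.ker) (hnn : n * n ∈ K) : n ∈ K := by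
  obtain ⟨W, ρ, hW, -, -⟩ := h.hy.exists_ir (R := ⊤) fun e => h.hy.ns (isSolvable_top_iff.1 e)
  obtain ⟨w, hw, hw1, h3⟩ := hW.not_two h.hy
  obtain ⟨u, hu, hp, hp2⟩ := exists_odd_of_not_two h3
  have h4 := hW.le_four h.hy hw hw1 hu hp hp2
  have hF := hW.four hw hw1
  obtain ⟨x, hx, rfl⟩ := mem_map.1 (h1.ge (mem_top w))
  obtain ⟨k, hk, rfl⟩ := mem_map.1 (h1.ge (mem_top ρ))
  have hw' := hW.conj_mem hw
  set Q := K ⊓ (zpowers (f k * f x * (f k)⁻¹)).comap f with hQ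
  have hQW : ∀ q ∈ Q, f q ∈ W := fun q hq => zpowers_le.2 hw' hq.2
  have h5 : ∀ q ∈ K, f q ∈ W → q * q ∈ f.ker := fun q _ hq => by
    rw [MonoidHom.mem_ker, map_mul, hW.sq _ hq]
  have hQ2 : IsPGroup 2 Q := fun q => ⟨2, Subtype.ext (by
    have := hZ _ (mul_mem q.2.1 q.2.1) (h5 q q.2.1 (hQW q q.2))
    simpa [pow_succ, mul_assoc] using this)⟩
  have hfy : f (x * n) = f x := by rw [map_mul, MonoidHom.mem_ker.1 hn, mul_one]
  have hc : Commute x n := (mem_cent.1 (h2 hx) n hn).symm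
  have hyy : x * n * (x * n) ∈ K ⊓ f.ker := by
    rw [← sq, hc.mul_pow, sq, sq]
    exact ⟨mul_mem (mul_mem hx hx) hnn, mul_mem (h5 x hx hw) (mul_mem hn hn)⟩
  have hyQ : x * n ∈ 𝐍(Q) := mem_normalizer_of_conj_mem fun q hq =>
    mem_inf.2 ⟨Normal.conj_mem inferInstance q hq.1 _, by
      rw [mem_comap, map_mul, map_mul, map_inv, hfy, hW.comm hw (hQW q hq), mul_inv_cancel_right]
      exact hq.2⟩
  have hx' : k * x * k⁻¹ ∈ Q := mem_inf.2 ⟨mul_mem (mul_mem hk hx) (inv_mem hk), by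
    rw [mem_comap, map_mul, map_mul, map_inv]; exact mem_zpowers _⟩
  have h6 : (Q ⊔ zpowers (x * n)).map f = W := le_antisymm
    (map_le_iff_le_comap.2 (sup_le hQW (zpowers_le.2 (by rwa [mem_comap, hfy]))))
    ((hW.eq_V h4 hw hw1).ge.trans (V_le ⟨_, mem_sup_right (mem_zpowers _), hfy⟩
      ⟨_, mem_sup_left hx', by rw [map_mul, map_mul, map_inv]⟩))
  have h7 : IsPGroup 2 (Q ⊔ zpowers (x * n) : Subgroup G) := by
    rw [sup_comm]
    refine (pgroup_zpowers_of_pow (k := 2) ?_).to_sup_of_normal_right' hQ2 (zpowers_le.2 hyQ)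
    simpa [pow_succ, mul_assoc] using hZ _ hyy.1 hyy.2
  have h8 := h.lift_p Nat.prime_two h7 (fun e => hW.ne (h6 ▸ (Subgroup.map_eq_bot_iff _).2 e))
    (x := k) (by rw [h6]; exact hW.norm)
  rcases mem_sup_sq hyQ ⟨hyy.1, ker_le_comap f _ hyy.2⟩
    (conj_mem_of_mem_normalizer h8 (mem_sup_left hx')) with h9 | h9
  · have h10 := (mem_inf.1 h9).2
    rw [mem_comap, show k * (k * x * k⁻¹) * k⁻¹ = k * k * x * (k * k)⁻¹ by group, map_mul, map_mul,
      map_inv, map_mul, hW.conj_two h4 hw hw1, mul_mem_cancel_right (mem_zpowers _),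
      mem_zpowers_inv hF.os] at h10
    exact (h10.elim hw1 hF.ne).elim
  · exact (mul_mem_cancel_left hx).1 (inv_mem_iff.1 ((mul_mem_cancel_left
      (mul_mem (mul_mem hk (mem_inf.1 hx').1) (inv_mem hk))).1 (mem_inf.1 h9).1))

theorem coprime {F : Type*} [Field F] (hF : (2 : F) ≠ 0)
    (e : X ≃* Matrix.ProjectiveSpecialLinearGroup (Fin 2) F) {r : ℕ} (hr : r.Prime)
    (hd : r ∣ Nat.card K) : ¬ r ∣ K.relIndex f.ker := fun hd' => by
  by_cases h3 : r = 2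
  · subst h3
    obtain ⟨y, hy⟩ := exists_prime_orderOf_dvd_card' (G := f.ker ⧸ K.subgroupOf f.ker) 2 hd'
    obtain ⟨n, rfl⟩ := QuotientGroup.mk'_surjective _ y
    refine ne_one_of_inv hy ((QuotientGroup.eq_one_iff n).2 (h.no_two h1 h2 hZ n.2 ?_))
    have := mul_self_of_inv hy
    rw [← map_mul] at this
    exact (QuotientGroup.eq_one_iff (n * n)).1 this
  · obtain ⟨x, hx, ho⟩ := exists_orderOf_prime hr hd
    obtain ⟨n, hn, ho'⟩ := exists_orderOf_prime hr (hd'.trans (relIndex_dvd_card _ _))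
    exact h.no_odd h1 h2 hZ hF e hx hn (ho ▸ hr) (ho ▸ h3) (ho'.trans ho.symm)

omit h1 in
theorem comm {S : Subgroup G} (hS : S ≤ f.ker) (hc : (Nat.card K).Coprime (Nat.card S))
    (hd : 6 ∣ Nat.card K) : IsMulCommutative S := by
  obtain ⟨x, hx, ho⟩ := exists_orderOf_prime Nat.prime_three ((by decide : 3 ∣ 6).trans hd)
  have h3 := notMem_ker hZ hx (ho ▸ Nat.prime_three) (by omega)
  refine dedekind_odd (Nat.coprime_two_left.1 (hc.coprime_dvd_left
    ((by decide : 2 ∣ 6).trans hd))) fun t ht q k hq hk => ?_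
  by_cases h4 : t = 1
  · rw [h4, zpowers_one_eq_bot, normalizer_eq_top]; exact le_top
  haveI := Fact.mk hq
  have hT := pgroup_zpowers_of_pow hk
  have h5 : q ≠ 3 := by
    rintro rfl
    have h6 := hT.card_eq_or_dvd.resolve_left fun e => h4 (by simpa using card_eq_one.1 e)
    exact absurd (Nat.eq_one_of_dvd_coprimes hc ((by decide : 3 ∣ 6).trans hd)
      (h6.trans (card_dvd_of_le (zpowers_le.2 ht)))) (by decide)
  have hn : zpowers x ≤ 𝐍(zpowers t) := zpowers_le.2 (cent_le_norm _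
    ((cent_zpowers t).ge (cent_le_cent1 (hS ht) (h2 hx))))
  refine hS.trans ((ker_le_comap f _).trans ((h.lift (zpowers t ⊔ zpowers x) q 3 hq Nat.prime_three
    (fun r hr hd => ?_) fun e => h3 (e (mem_sup_right (mem_zpowers x)))).trans
    (norm_le_norm_of_normal_hall (hallOf_of_sylow (sylow_sup hq Nat.prime_three h5 hT
      (isPGroup_zpowers ho) hn)) (sup_le le_normalizer hn))))
  rw [sup_comm] at hd
  rcases hr.dvd_mul.1 (hd.trans (card_sup_dvd_mul hn)) with h6 | h6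
  · exact Or.inr (prime_eq_of_dvd Nat.prime_three hr (isPGroup_zpowers ho) h6)
  · exact Or.inl (prime_eq_of_dvd hq hr hT h6)

end Lf

theorem sq_ne13 : (2 : ZMod 13) ^ 2 ≠ 1 := by decide

theorem Lf.main (h : Lf f) : ∃ K S : Subgroup G, K.Normal ∧ S.Normal ∧ K ⊓ S = ⊥ ∧ K ⊔ S = ⊤ ∧
    (Nonempty (K ≃* Matrix.ProjectiveSpecialLinearGroup (Fin 2) (ZMod 13)) ∨
      Nonempty (K ≃* Matrix.SpecialLinearGroup (Fin 2) (ZMod 13))) ∧
    IsMulCommutative S ∧ (Nat.card K).Coprime (Nat.card S) := by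
  obtain ⟨e⟩ := h.hy.psl13
  haveI : Fact (Nat.Prime 13) := ⟨by norm_num⟩
  haveI : IsSimpleGroup (Matrix.ProjectiveSpecialLinearGroup (Fin 2) (ZMod 13)) :=
    Matrix.ProjectiveSpecialLinearGroup.rank_two_simple (by rw [Nat.card_zmod]; norm_num)
  haveI : IsSimpleGroup X := e.isSimpleGroup
  have hc : Nat.card X = 1092 := by rw [Nat.card_congr e.toEquiv, card_psl13]
  obtain ⟨K, hK, h1, h2, h3⟩ := h.exists_K (BSW.commutator_eq_top_of_simple fun e =>
    h.hy.ns isSolvable_of_isMulCommutative) Nat.prime_two Nat.prime_three (by decide)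
    (by rw [hc]; decide) (by rw [hc]; decide)
  have hs : Function.Surjective (f.comp K.subtype) := fun y => by
    obtain ⟨k, hk, rfl⟩ := h1.ge (mem_top y)
    exact ⟨⟨k, hk⟩, rfl⟩
  obtain ⟨hZ, hiso⟩ := SW.quasi two_ne13 (Matrix.SL2.commutator_eq_top two_ne13 sq_ne13) h3
    oc_psl13 (σ := e.toMonoidHom.comp (f.comp K.subtype)) ⟨e.surjective.comp hs, fun z hz =>
      mem_center_iff.2 fun g => Subtype.ext (mem_cent.1 (h2 g.2) z (by simpa using hz)).symm⟩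
  replace hZ : ∀ z ∈ K, z ∈ f.ker → z * z = 1 := fun z hz hz' =>
    congrArg Subtype.val (hZ ⟨z, hz⟩ (by simpa using hz'))
  obtain ⟨S, hS⟩ := Hall.exists_isPiHallOf h.sol {r | r ∣ Nat.card K}ᶜ
  have h4 : IsPiHallOf {r | r ∣ Nat.card K} (K ⊓ f.ker) f.ker :=
    ⟨inf_le_right, fun r _ hd => hd.trans (card_dvd_of_le inf_le_left), fun r hr hd => by
      rw [inf_relIndex_right]; exact h.coprime h1 h2 hZ two_ne13 e hr hd⟩
  have h5 := IsComplIn.sup_eq (isComplIn_of_hall h4 hS)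
  have h6 : (Nat.card K).Coprime (Nat.card S) :=
    IsPiNum.coprime_compl (π := {r | r ∣ Nat.card K}) (fun _ _ hd => hd) hS.2.1
  have h7 : K ⊔ S = ⊤ := by
    rw [eq_top_iff, ← comap_top f, ← h1, comap_map_eq, ← h5]
    exact sup_le le_sup_left (sup_le_sup_right inf_le_left S)
  refine ⟨K, S, hK, normal_of_le_normalizer_top (h7.ge.trans (sup_le
    (h2.trans ((centralizer_le hS.1).trans (cent_le_norm S))) le_normalizer)),
    inf_eq_bot_of_coprime h6, h7, hiso, h.comm h2 hZ hS.1 h6 ?_, h6⟩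
  exact Dvd.dvd.trans (by rw [hc]; decide) (card_dvd_of_surjective _ hs)

end CfsgLib.H5.MN
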